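import Cfsg.Agent.Lib.M24.OctOct

/-!
# The bottom row of the Leech triangle
-/

set_option autoImplicit false

namespace Cfsg.Agent.Lib.M24

open Cfsg Cfsg.Agent.Lib.Compute Cfsg.Agent.Lib.Golay
open scoped Pointwise

/-- A test over all submasks of `O` below bit `n`. -/
noncomputable def allSub (P : ℕ → Bool) (O : ℕ) (n : ℕ) : ℕ → Bool :=
  Nat.rec (fun acc => P acc)
    (fun i ih acc => bcond (tb O i) (bcond (ih acc) (ih (Nat.add acc (Nat.pow 2 i))) false) (ih acc)) n

theorem allSub_succ (P : ℕ → Bool) (O n acc : ℕ) : allSub P O (n + 1) acc =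
    bcond (tb O n) (bcond (allSub P O n acc) (allSub P O n (Nat.add acc (Nat.pow 2 n))) false) (allSub P O n acc) := rfl

theorem allSub_spec {P : ℕ → Bool} {O : ℕ} : ∀ n acc, allSub P O n acc = true → ∀ m, m < 2 ^ n →
    (∀ i, m.testBit i = true → O.testBit i = true) → P (acc + m) = true := by
  intro n
  induction n with
  | zero =>
    intro acc h m hm _
    have : m = 0 := by simpa using hm
    subst this
    exact h
  | succ n ih =>
    intro acc h m hm hsub
    rw [allSub_succ] at h
    have hO : tb O n = true → (allSub P O n acc = true ∧ allSub P O n (acc + 2 ^ n) = true) := by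
      intro h1
      rw [h1] at h
      simp only [bcond_true] at h
      cases h2 : allSub P O n acc
      · rw [h2] at h
        simp at h
      · rw [h2] at h
        exact ⟨rfl, h⟩
    have hO' : tb O n = false → allSub P O n acc = true := by
      intro h1
      rw [h1] at h
      exact h
    have hsub' : ∀ i, (m % 2 ^ n).testBit i = true → O.testBit i = true := by
      intro i hi
      rw [Nat.testBit_mod_two_pow] at hi
      simp only [Bool.and_eq_true, decide_eq_true_eq] at hi
      exact hsub i hi.2
    have hlt : m % 2 ^ n < 2 ^ n := Nat.mod_lt _ (by positivity)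
    by_cases hb : m.testBit n = true
    · have h1 : tb O n = true := by
        rw [tb_eq]
        exact hsub n hb
      have h3 := ih _ (hO h1).2 _ hlt hsub'
      have h4 : m / 2 ^ n = 1 := by
        have h5 : m / 2 ^ n < 2 := by
          apply Nat.div_lt_of_lt_mul
          rw [← pow_succ]
          exact hm
        have h6 : m / 2 ^ n % 2 = 1 := by
          have := Nat.testBit_eq_decide_div_mod_eq (x := m) (i := n)
          rw [hb] at this
          simpa using this.symm
        generalize m / 2 ^ n = q at h5 h6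
        omega
      have h7 : m = 2 ^ n + m % 2 ^ n := by
        conv_lhs => rw [← Nat.div_add_mod m (2 ^ n), h4, mul_one]
      rw [h7, ← add_assoc]
      exact h3
    · have h8 : m % 2 ^ n = m := by
        apply Nat.mod_eq_of_lt
        by_contra hge
        have hge' : 2 ^ n ≤ m := by omega
        have h4 : m / 2 ^ n = 1 := by
          have h5 : m / 2 ^ n < 2 := by
            apply Nat.div_lt_of_lt_mul
            rw [← pow_succ]
            exact hm
          have h6 : 0 < m / 2 ^ n := Nat.div_pos hge' (by positivity)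
          omega
        apply hb
        rw [Nat.testBit_eq_decide_div_mod_eq, h4]
        rfl
      have h9 : allSub P O n acc = true := by
        cases h1 : tb O n
        · exact hO' h1
        · exact (hO h1).1
      have h10 := ih acc h9 (m % 2 ^ n) hlt hsub'
      rw [h8] at h10
      exact h10

/-- The test on submasks of the base octad. -/
noncomputable def triTest (m : ℕ) : Bool :=
  bcond (Nat.beq (Enc.popAux m 24) 2) (Nat.beq (countBelow (fun k => Nat.beq (Nat.land O0 (ocT k)) m) 759) 16)
    (bcond (Nat.beq (Enc.popAux m 24) 4) (Nat.beq (countBelow (fun k => Nat.beq (Nat.land O0 (ocT k)) m) 759) 4) true)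

theorem triTest_all : allSub triTest O0 24 0 = true := by decide +kernel

theorem ncard_base (m : ℕ) (hm : m < 2 ^ 24) :
    {o' : Finset GolayPt | o' ∈ octads ∧ (enc.finOf O0 : Finset GolayPt) ∩ o' = enc.finOf m}.ncard =
      countBelow (fun k => Nat.beq (Nat.land O0 (ocT k)) m) 759 := by
  apply ncard_table (fun _ => mem_octads_table) (fun _ _ ha hb h => oc_injOn ha hb h)
  intro k _
  rw [show (enc.finOf O0 ∩ enc.finOf (ocT k) : Finset GolayPt) = enc.finOf (Nat.land O0 (ocT k)) from (enc.finOf_and _ _).symm]
  constructor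
  · intro h
    have h1 : Nat.land O0 (ocT k) < 2 ^ 24 := lt_of_le_of_lt Nat.and_le_right (ocT_lt k)
    rw [enc.finOf_injOn h1 hm h]
    exact Nat.beq_refl m
  · intro h
    rw [Nat.eq_of_beq_eq_true h]

theorem base_row {s : Finset GolayPt} (hs : s ⊆ enc.finOf O0) :
    (s.card = 2 → {o' : Finset GolayPt | o' ∈ octads ∧ (enc.finOf O0 : Finset GolayPt) ∩ o' = s}.ncard = 16) ∧
    (s.card = 4 → {o' : Finset GolayPt | o' ∈ octads ∧ (enc.finOf O0 : Finset GolayPt) ∩ o' = s}.ncard = 4) := by
  classical
  obtain ⟨m, hm, rfl⟩ := enc.exists_mask s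
  have hsub : ∀ i, m.testBit i = true → (O0 : ℕ).testBit i = true := by
    intro i hi
    by_cases h24 : i < 24
    · have h1 : pt i ∈ (enc.finOf m : Finset GolayPt) := by
        rw [Enc.mem_finOf, enc_idx, idx_pt h24]
        exact hi
      have h2 := hs h1
      rw [Enc.mem_finOf, enc_idx, idx_pt h24] at h2
      exact h2
    · exfalso
      have := Nat.testBit_lt_two_pow hm
      have h3 : m.testBit i = false := Nat.testBit_lt_two_pow (lt_of_lt_of_le hm (Nat.pow_le_pow_right (by norm_num) (by omega)))
      rw [h3] at hi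
      exact absurd hi (by simp)
  have h1 := allSub_spec 24 0 triTest_all m hm hsub
  rw [zero_add] at h1
  rw [ncard_base m hm, card_enc_finOf]
  constructor
  · intro h2
    have h3 : triTest m = Nat.beq (countBelow (fun k => Nat.beq (Nat.land O0 (ocT k)) m) 759) 16 := by
      show bcond (Nat.beq (Enc.popAux m 24) 2) _ _ = _
      rw [h2]
      rfl
    rw [h3] at h1
    exact Nat.eq_of_beq_eq_true h1
  · intro h2
    have h3 : triTest m = Nat.beq (countBelow (fun k => Nat.beq (Nat.land O0 (ocT k)) m) 759) 4 := by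
      show bcond (Nat.beq (Enc.popAux m 24) 2) _ (bcond (Nat.beq (Enc.popAux m 24) 4) _ _) = _
      rw [h2]
      rfl
    rw [h3] at h1
    exact Nat.eq_of_beq_eq_true h1

theorem row_smul (g : ↥M24) (o s : Finset GolayPt) :
    {o' : Finset GolayPt | o' ∈ octads ∧ g • o ∩ o' = g • s} =
      (fun y => g • y) '' {o' : Finset GolayPt | o' ∈ octads ∧ o ∩ o' = s} := by
  have hinter : ∀ (a b : Finset GolayPt), g • a ∩ g • b = g • (a ∩ b) := fun a b => by
    show g.1 • a ∩ g.1 • b = g.1 • (a ∩ b)
    rw [Finset.smul_finset_inter]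
  ext y
  constructor
  · rintro ⟨h1, h2⟩
    refine ⟨g⁻¹ • y, ⟨smul_mem_octads (g⁻¹).2 h1, ?_⟩, smul_inv_smul g y⟩
    apply MulAction.injective g
    show g • (o ∩ g⁻¹ • y) = g • s
    rw [← hinter, smul_inv_smul]
    exact h2
  · rintro ⟨z, ⟨h1, h2⟩, rfl⟩
    refine ⟨smul_mem_octads g.2 h1, ?_⟩
    show g • o ∩ g • z = g • s
    rw [hinter, h2]

/-- Bottom row of the Leech triangle. -/
theorem octad_bottom_row {o s : Finset GolayPt} (ho : o ∈ octads) (hs : s ⊆ o) :
    (s.card = 2 → {o' : Finset GolayPt | o' ∈ octads ∧ o ∩ o' = s}.ncard = 16) ∧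
    (s.card = 4 → {o' : Finset GolayPt | o' ∈ octads ∧ o ∩ o' = s}.ncard = 4) := by
  obtain ⟨g, rfl⟩ := octads_transitive O0_octad ho
  have hcard : (g⁻¹ • s).card = s.card := Finset.card_smul_finset (g⁻¹).1 s
  have hs' : g⁻¹ • s ⊆ enc.finOf O0 := by
    intro x hx
    have h1 : g • x ∈ s := by
      obtain ⟨y, hy, rfl⟩ := Finset.mem_smul_finset.1 hx
      rw [show g • (g⁻¹ • y) = y from smul_inv_smul g y]
      exact hy
    have h2 := hs h1
    obtain ⟨y, hy, hye⟩ := Finset.mem_smul_finset.1 h2
    have : y = x := MulAction.injective g hye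
    exact this ▸ hy
  have h := base_row hs'
  have hsg : s = g • (g⁻¹ • s) := (smul_inv_smul g s).symm
  have hr := row_smul g (enc.finOf O0) (g⁻¹ • s)
  rw [← hsg] at hr
  rw [hr, Set.ncard_image_of_injective _ (MulAction.injective g), ← hcard]
  exact h

end Cfsg.Agent.Lib.M24
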