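import Cfsg.Agent.Lib.M24.Flags
import Cfsg.Agent.Lib.M24.QuartetData
import Cfsg.Agent.Lib.M24.Triangle
import Cfsg.Agent.Lib.Golay.Dodecad2
import Cfsg.Prelude.Def_SporadicCombinatorics

/-!
# Hexads and quartets of a dodecad
-/

set_option autoImplicit false
set_option linter.constructorNameAsVariable false

namespace Cfsg.Agent.Lib.M24

open Cfsg Cfsg.Agent.Lib.Compute Cfsg.Agent.Lib.Golay
open scoped Pointwise

/-! ### Invariance -/

theorem smul_mem_hexadsOn (g : ↥M24) {d h : Finset GolayPt} (hh : h ∈ hexadsOn d) : g • h ∈ hexadsOn (g • d) := by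
  obtain ⟨hc, o, ho, e⟩ := hh
  refine ⟨by rw [show (g • h).card = h.card from Finset.card_smul_finset g.1 h]; exact hc, g • o, smul_mem_octads g.2 ho, ?_⟩
  rw [← e]
  exact (Finset.smul_finset_inter (a := g.1) (s := o) (t := d)).symm

theorem smul_mem_quartets (g : ↥M24) {d : Finset GolayPt} {Q : Finset (Finset GolayPt)} (hQ : Q ∈ quartets d) :
    g • Q ∈ quartets (g • d) := by
  obtain ⟨h1, h2, h3⟩ := hQ
  refine ⟨by rw [Finset.card_smul_finset]; exact h1, ?_, ?_⟩
  · intro t ht
    obtain ⟨t', ht', rfl⟩ := Finset.mem_smul_finset.1 ht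
    obtain ⟨h4, h5⟩ := h2 t' ht'
    refine ⟨by rw [show (g • t').card = t'.card from Finset.card_smul_finset g.1 t']; exact h4, ?_⟩
    exact Finset.smul_finset_subset_smul_finset_iff.2 h5
  · intro t ht u hu htu
    obtain ⟨t', ht', rfl⟩ := Finset.mem_smul_finset.1 ht
    obtain ⟨u', hu', rfl⟩ := Finset.mem_smul_finset.1 hu
    have hne : t' ≠ u' := fun h => htu (by rw [h])
    have h6 := smul_mem_hexadsOn g (h3 t' ht' u' hu' hne)
    have h7 : g • (t' ∪ u') = g • t' ∪ g • u' := Finset.smul_finset_union (a := g.1) (s₁ := t') (s₂ := u')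
    rwa [h7] at h6

theorem mem_smul_fam (g : ↥M24) {t : Finset GolayPt} {Q : Finset (Finset GolayPt)} : g • t ∈ g • Q ↔ t ∈ Q := by
  constructor
  · intro h
    obtain ⟨y, hy, e⟩ := Finset.mem_smul_finset.1 h
    have : y = t := MulAction.injective g e
    rwa [← this]
  · intro h
    exact Finset.mem_smul_finset.2 ⟨t, h, rfl⟩

/-! ### Combinatorics of a quartet -/

theorem quartet_disjoint {d : Finset GolayPt} {Q : Finset (Finset GolayPt)} (hQ : Q ∈ quartets d) {t u : Finset GolayPt}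
    (ht : t ∈ Q) (hu : u ∈ Q) (htu : t ≠ u) : Disjoint t u := by
  obtain ⟨_, h2, h3⟩ := hQ
  have h4 := (h3 t ht u hu htu).1
  have h5 := Finset.card_union_add_card_inter t u
  rw [h4, (h2 t ht).1, (h2 u hu).1] at h5
  rw [Finset.disjoint_iff_inter_eq_empty, ← Finset.card_eq_zero]
  omega

theorem quartet_cover {d : Finset GolayPt} (hd : d.card = 12) {Q : Finset (Finset GolayPt)} (hQ : Q ∈ quartets d)
    {a : GolayPt} (ha : a ∈ d) : ∃ t ∈ Q, a ∈ t := by
  classical
  have h1 : Q.biUnion id = d := by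
    apply Finset.eq_of_subset_of_card_le
    · intro x hx
      obtain ⟨t, ht, hxt⟩ := Finset.mem_biUnion.1 hx
      exact (hQ.2.1 t ht).2 hxt
    · rw [Finset.card_biUnion]
      · have h2 : ∑ u ∈ Q, (id u).card = ∑ _u ∈ Q, 3 := Finset.sum_congr rfl (fun t ht => (hQ.2.1 t ht).1)
        rw [h2, Finset.sum_const, hQ.1, hd]
        norm_num
      · intro t ht u hu htu
        exact quartet_disjoint hQ ht hu htu
  rw [← h1] at ha
  obtain ⟨t, ht, hat⟩ := Finset.mem_biUnion.1 ha
  exact ⟨t, ht, hat⟩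

/-! ### Tests on masks -/

/-- A hexad of a dodecad, as a test on masks. -/
noncomputable def hexB (d m : ℕ) : Bool :=
  Nat.beq (Enc.popAux m 24) 6 && anyBelow (fun j => Nat.beq (Nat.land (ocT j) d) m) 759

theorem land_lt_of {a b : ℕ} (hb : b < 2 ^ 24) : Nat.land a b < 2 ^ 24 :=
  lt_of_le_of_lt Nat.and_le_right hb

theorem hexB_iff {d m : ℕ} (hd : d < 2 ^ 24) (hm : m < 2 ^ 24) :
    (enc.finOf m : Finset GolayPt) ∈ hexadsOn (enc.finOf d) ↔ hexB d m = true := by
  unfold hexB
  rw [Bool.and_eq_true, anyBelow_iff]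
  constructor
  · rintro ⟨hc, o, ho, e⟩
    refine ⟨by rw [card_enc_finOf] at hc; rw [hc]; exact Nat.beq_refl _, ?_⟩
    obtain ⟨j, hj, rfl⟩ := mem_octads_table.1 ho
    refine ⟨j, hj, ?_⟩
    have h1 : (enc.finOf (Nat.land (ocT j) d) : Finset GolayPt) = enc.finOf m := by
      rw [← e]
      exact enc.finOf_and _ _
    rw [enc.finOf_injOn (land_lt_of hd) hm h1]
    exact Nat.beq_refl _
  · rintro ⟨hc, j, hj, e⟩
    refine ⟨by rw [card_enc_finOf]; exact Nat.eq_of_beq_eq_true hc, enc.finOf (ocT j), oc_mem hj, ?_⟩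
    rw [← Nat.eq_of_beq_eq_true e]
    exact (enc.finOf_and _ _).symm

/-! ### The base quartet -/

/-- The base dodecad, as a mask. -/
abbrev dM : ℕ := 340831

theorem dM_card : (enc.finOf dM : Finset GolayPt).card = 12 := by
  rw [card_enc_finOf]
  decide +kernel

/-- The masks of the base quartet. -/
abbrev qa : ℕ := 7
/-- The masks of the base quartet. -/
abbrev qb : ℕ := 4120
/-- The masks of the base quartet. -/
abbrev qc : ℕ := 8960
/-- The masks of the base quartet. -/
abbrev qe : ℕ := 327744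

/-- The base quartet. -/
noncomputable def Q0 : Finset (Finset GolayPt) := {enc.finOf qa, enc.finOf qb, enc.finOf qc, enc.finOf qe}

theorem qa_ne : (enc.finOf qa : Finset GolayPt) ≠ enc.finOf qb ∧ (enc.finOf qa : Finset GolayPt) ≠ enc.finOf qc ∧
    (enc.finOf qa : Finset GolayPt) ≠ enc.finOf qe ∧ (enc.finOf qb : Finset GolayPt) ≠ enc.finOf qc ∧
    (enc.finOf qb : Finset GolayPt) ≠ enc.finOf qe ∧ (enc.finOf qc : Finset GolayPt) ≠ enc.finOf qe := by
  have key : ∀ a b : ℕ, a < 2 ^ 24 → b < 2 ^ 24 → a ≠ b → (enc.finOf a : Finset GolayPt) ≠ enc.finOf b :=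
    fun a b ha hb hab h => hab (enc.finOf_injOn ha hb h)
  refine ⟨key _ _ (by norm_num) (by norm_num) (by norm_num), key _ _ (by norm_num) (by norm_num) (by norm_num),
    key _ _ (by norm_num) (by norm_num) (by norm_num), key _ _ (by norm_num) (by norm_num) (by norm_num),
    key _ _ (by norm_num) (by norm_num) (by norm_num), key _ _ (by norm_num) (by norm_num) (by norm_num)⟩

theorem card_triple {m : ℕ} (h : Enc.popAux m 24 = 3) : (enc.finOf m : Finset GolayPt).card = 3 := by
  rw [card_enc_finOf, h]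

theorem subset_of_land {a b : ℕ} (h : Nat.land a b = a) : (enc.finOf a : Finset GolayPt) ⊆ enc.finOf b := by
  have h1 : (enc.finOf a : Finset GolayPt) ∩ enc.finOf b = enc.finOf a := by
    rw [← enc.finOf_and]
    exact congrArg _ h
  exact Finset.inter_eq_left.1 h1

theorem union_hex {a b d : ℕ} (hd : d < 2 ^ 24) (ha : a < 2 ^ 24) (hb : b < 2 ^ 24) (h : hexB d (Nat.lor a b) = true) :
    (enc.finOf a ∪ enc.finOf b : Finset GolayPt) ∈ hexadsOn (enc.finOf d) := by
  have h1 : (enc.finOf a ∪ enc.finOf b : Finset GolayPt) = enc.finOf (Nat.lor a b) := (enc.finOf_or _ _).symm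
  rw [h1]
  exact (hexB_iff hd (Nat.or_lt_two_pow ha hb)).2 h

theorem hex_of_union {a b d : ℕ} (hd : d < 2 ^ 24) (ha : a < 2 ^ 24) (hb : b < 2 ^ 24)
    (h : (enc.finOf a ∪ enc.finOf b : Finset GolayPt) ∈ hexadsOn (enc.finOf d)) : hexB d (Nat.lor a b) = true := by
  have h1 : (enc.finOf a ∪ enc.finOf b : Finset GolayPt) = enc.finOf (Nat.lor a b) := (enc.finOf_or _ _).symm
  rw [h1] at h
  exact (hexB_iff hd (Nat.or_lt_two_pow ha hb)).1 h

theorem Q0_mem : Q0 ∈ quartets (enc.finOf dM) := by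
  obtain ⟨h1, h2, h3, h4, h5, h6⟩ := qa_ne
  have hab : hexB dM (Nat.lor qa qb) = true := by decide +kernel
  have hac : hexB dM (Nat.lor qa qc) = true := by decide +kernel
  have hae : hexB dM (Nat.lor qa qe) = true := by decide +kernel
  have hbc : hexB dM (Nat.lor qb qc) = true := by decide +kernel
  have hbe : hexB dM (Nat.lor qb qe) = true := by decide +kernel
  have hce : hexB dM (Nat.lor qc qe) = true := by decide +kernel
  have hu : ∀ a b, hexB dM (Nat.lor a b) = true → a < 2 ^ 24 → b < 2 ^ 24 →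
      (enc.finOf a ∪ enc.finOf b : Finset GolayPt) ∈ hexadsOn (enc.finOf dM) ∧
      (enc.finOf b ∪ enc.finOf a : Finset GolayPt) ∈ hexadsOn (enc.finOf dM) := by
    intro a b h ha hb
    have := union_hex (d := dM) (by norm_num) ha hb h
    exact ⟨this, by rwa [Finset.union_comm]⟩
  have e1 := hu _ _ hab (by norm_num) (by norm_num)
  have e2 := hu _ _ hac (by norm_num) (by norm_num)
  have e3 := hu _ _ hae (by norm_num) (by norm_num)
  have e4 := hu _ _ hbc (by norm_num) (by norm_num)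
  have e5 := hu _ _ hbe (by norm_num) (by norm_num)
  have e6 := hu _ _ hce (by norm_num) (by norm_num)
  refine ⟨?_, ?_, ?_⟩
  · rw [Q0, Finset.card_insert_of_notMem (by simp [h1, h2, h3]), Finset.card_insert_of_notMem (by simp [h4, h5]),
      Finset.card_insert_of_notMem (by simp [h6]), Finset.card_singleton]
  · intro t ht
    simp only [Q0, Finset.mem_insert, Finset.mem_singleton] at ht
    rcases ht with rfl | rfl | rfl | rfl
    · exact ⟨card_triple (by decide +kernel), subset_of_land (by decide +kernel)⟩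
    · exact ⟨card_triple (by decide +kernel), subset_of_land (by decide +kernel)⟩
    · exact ⟨card_triple (by decide +kernel), subset_of_land (by decide +kernel)⟩
    · exact ⟨card_triple (by decide +kernel), subset_of_land (by decide +kernel)⟩
  · intro t ht u hu htu
    simp only [Q0, Finset.mem_insert, Finset.mem_singleton] at ht hu
    rcases ht with rfl | rfl | rfl | rfl
    · rcases hu with rfl | rfl | rfl | rfl
      · exact absurd rfl htu
      · exact e1.1
      · exact e2.1
      · exact e3.1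
    · rcases hu with rfl | rfl | rfl | rfl
      · exact e1.2
      · exact absurd rfl htu
      · exact e4.1
      · exact e5.1
    · rcases hu with rfl | rfl | rfl | rfl
      · exact e2.2
      · exact e4.2
      · exact absurd rfl htu
      · exact e6.1
    · rcases hu with rfl | rfl | rfl | rfl
      · exact e3.2
      · exact e5.2
      · exact e6.2
      · exact absurd rfl htu

/-- Submasks of the rest, with the two hexad conditions, are the two remaining triples. -/
noncomputable def restChk (m : ℕ) : Bool :=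
  !(Nat.beq (Enc.popAux m 24) 3) || !(hexB dM (Nat.lor qa m)) || !(hexB dM (Nat.lor qb m)) ||
    Nat.beq m qc || Nat.beq m qe

theorem rest_chk : allSub restChk (Nat.lor qc qe) 24 0 = true := by decide +kernel

theorem rest_bits : allBelow (fun i => !(tb dM i) || tb qa i || tb qb i || tb (Nat.lor qc qe) i) 24 = true := by
  decide +kernel

theorem testBit_lor_iff (a b i : ℕ) : (Nat.lor a b).testBit i = true ↔ a.testBit i = true ∨ b.testBit i = true := by
  show (a ||| b).testBit i = true ↔ _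
  rw [Nat.testBit_or, Bool.or_eq_true]

theorem third_triple {Q : Finset (Finset GolayPt)} (hQ : Q ∈ quartets (enc.finOf dM)) (ha : enc.finOf qa ∈ Q)
    (hb : enc.finOf qb ∈ Q) {v : Finset GolayPt} (hv : v ∈ Q) (hva : v ≠ enc.finOf qa) (hvb : v ≠ enc.finOf qb) :
    v = enc.finOf qc ∨ v = enc.finOf qe := by
  obtain ⟨m, hm, rfl⟩ := enc.exists_mask v
  have h1 := (hQ.2.1 _ hv).1
  have h2 := (hQ.2.1 _ hv).2
  have h3 := quartet_disjoint hQ hv ha hva
  have h4 := quartet_disjoint hQ hv hb hvb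
  have h5 := hQ.2.2 _ ha _ hv hva.symm
  have h6 := hQ.2.2 _ hb _ hv hvb.symm
  have hsub : ∀ i, m.testBit i = true → (Nat.lor qc qe).testBit i = true := by
    intro i hi
    have hi' : i < 24 := by
      by_contra hc
      have := Nat.testBit_lt_two_pow (lt_of_lt_of_le hm (Nat.pow_le_pow_right (by norm_num) (not_lt.1 hc)))
      rw [hi] at this
      exact Bool.noConfusion this
    have hmem : pt i ∈ (enc.finOf m : Finset GolayPt) := by
      rw [enc.mem_finOf]
      show m.testBit (idx (pt i)) = true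
      rwa [idx_pt hi']
    have hd := h2 hmem
    have hna : pt i ∉ (enc.finOf qa : Finset GolayPt) := Finset.disjoint_left.1 h3 hmem
    have hnb : pt i ∉ (enc.finOf qb : Finset GolayPt) := Finset.disjoint_left.1 h4 hmem
    have hb1 := (allBelow_iff _ _).1 rest_bits i hi'
    rw [mem_finOf_ptR hi'] at hd hna hnb
    rw [← tb_eq]
    simp only [Bool.or_eq_true, Bool.not_eq_true'] at hb1
    rcases hb1 with ((hb1 | hb1) | hb1) | hb1
    · rw [hd] at hb1
      exact Bool.noConfusion hb1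
    · exact absurd hb1 hna
    · exact absurd hb1 hnb
    · exact hb1
  have hc := allSub_spec _ _ rest_chk m hm hsub
  rw [Nat.zero_add] at hc
  simp only [restChk, Bool.or_eq_true, Bool.not_eq_true'] at hc
  have e5 : hexB dM (Nat.lor qa m) = true := hex_of_union (by norm_num) (by norm_num) hm h5
  have e6 : hexB dM (Nat.lor qb m) = true := hex_of_union (by norm_num) (by norm_num) hm h6
  have e7 : Nat.beq (Enc.popAux m 24) 3 = true := by
    rw [card_enc_finOf] at h1
    rw [h1]
    rfl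
  rw [e5, e6, e7] at hc
  simp only [Bool.true_eq_false, false_or] at hc
  rcases hc with hc | hc
  · left
    rw [Nat.eq_of_beq_eq_true hc]
  · right
    rw [Nat.eq_of_beq_eq_true hc]

/-- The base quartet is the only one through its first two triples. -/
theorem base_unique {Q : Finset (Finset GolayPt)} (hQ : Q ∈ quartets (enc.finOf dM)) (ha : enc.finOf qa ∈ Q)
    (hb : enc.finOf qb ∈ Q) : Q = Q0 := by
  apply Finset.eq_of_subset_of_card_le
  · intro v hv
    simp only [Q0, Finset.mem_insert, Finset.mem_singleton]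
    by_cases h1 : v = enc.finOf qa
    · exact Or.inl h1
    by_cases h2 : v = enc.finOf qb
    · exact Or.inr (Or.inl h2)
    rcases third_triple hQ ha hb hv h1 h2 with h3 | h3
    · exact Or.inr (Or.inr (Or.inl h3))
    · exact Or.inr (Or.inr (Or.inr h3))
  · rw [Q0_mem.1, hQ.1]

/-! ### Normal form of a split hexad -/

theorem finOf_qa : (enc.finOf qa : Finset GolayPt) = {pt 0, pt 1, pt 2} := by decide +kernel

theorem finOf_union_base : (enc.finOf qa ∪ enc.finOf qb : Finset GolayPt) = enc.finOf (Nat.land 5279 dM) := by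
  rw [← enc.finOf_or]
  decide +kernel

theorem base5_sub : ({pt 0, pt 1, pt 2, pt 3, pt 4} : Finset GolayPt) ⊆ enc.finOf 5279 := by decide +kernel

theorem base5_card : ({pt 0, pt 1, pt 2, pt 3, pt 4} : Finset GolayPt).card = 5 := by decide +kernel

theorem qa_qb_disjoint : Disjoint (enc.finOf qa : Finset GolayPt) (enc.finOf qb) := by decide +kernel

theorem qb_card : (enc.finOf qb : Finset GolayPt).card = 3 := card_triple (by decide +kernel)

/-- Five distinct points of the base dodecad are the image of the first five base points. -/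
theorem exists_base_map {a b c e f : GolayPt} (hl : ([a, b, c, e, f] : List GolayPt).Nodup)
    (hm : ∀ y ∈ ([a, b, c, e, f] : List GolayPt), y ∈ D0) :
    ∃ G : ↥M24, G • (enc.finOf dM : Finset GolayPt) = enc.finOf dM ∧ G.1 (pt 0) = a ∧ G.1 (pt 1) = b ∧ G.1 (pt 2) = c ∧
      G.1 (pt 3) = e ∧ G.1 (pt 4) = f := by
  have hinj : Function.Injective (![a, b, c, e, f] : Fin 5 → GolayPt) := by
    have h1 : (List.ofFn (![a, b, c, e, f] : Fin 5 → GolayPt)).Nodup := by
      simpa [List.ofFn_succ] using hl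
    exact List.nodup_ofFn.1 h1
  have hx : ∀ i, (⟨![a, b, c, e, f], hinj⟩ : Fin 5 ↪ GolayPt) i ∈ D0 := by
    intro i
    apply hm
    fin_cases i <;> simp
  obtain ⟨g₁, hg₁, hmap⟩ := exists_GE_d0_maps ⟨![a, b, c, e, f], hinj⟩ hx
  have hg₁M := (mem_GE_d0_iff.1 hg₁).1
  exact ⟨⟨g₁, hg₁M⟩, (mem_GE_d0_iff.1 hg₁).2, hmap 0, hmap 1, hmap 2, hmap 3, hmap 4⟩

/-- Any split hexad of a dodecad is moved to the base one. -/
theorem split_normal {d : Finset GolayPt} (hd : d ∈ dodecads) {t u : Finset GolayPt} (ht : t.card = 3) (hu : u.card = 3)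
    (htu : Disjoint t u) (hh : t ∪ u ∈ hexadsOn d) :
    ∃ g : ↥M24, g • d = enc.finOf dM ∧ g • t = enc.finOf qa ∧ g • u = enc.finOf qb := by
  obtain ⟨g₀, hg₀⟩ := dodecads_transitive hd D0_mem
  have hg₀' : g₀ • d = enc.finOf dM := hg₀
  have hcard : ∀ (g : ↥M24) (s : Finset GolayPt), (g • s).card = s.card := fun g s => Finset.card_smul_finset g.1 s
  have hu0 : g₀ • t ∪ g₀ • u = g₀ • (t ∪ u) := (Finset.smul_finset_union (a := g₀.1) (s₁ := t) (s₂ := u)).symm
  have hh0 : g₀ • t ∪ g₀ • u ∈ hexadsOn (enc.finOf dM) := by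
    rw [hu0, ← hg₀']
    exact smul_mem_hexadsOn g₀ hh
  have hsubD : g₀ • t ∪ g₀ • u ⊆ enc.finOf dM := by
    obtain ⟨_, o, _, e⟩ := hh0
    rw [← e]
    exact Finset.inter_subset_right
  have hdis0 : Disjoint (g₀ • t) (g₀ • u) := by
    rw [Finset.disjoint_iff_inter_eq_empty] at htu ⊢
    have : g₀ • t ∩ g₀ • u = g₀ • (t ∩ u) := (Finset.smul_finset_inter (a := g₀.1) (s := t) (t := u)).symm
    rw [this, htu]
    exact Finset.smul_finset_empty _
  obtain ⟨a, b, c, hab, hac, hbc, eT⟩ := Finset.card_eq_three.1 ((hcard g₀ t).trans ht)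
  obtain ⟨e, f, z, hef, hez, hfz, eU⟩ := Finset.card_eq_three.1 ((hcard g₀ u).trans hu)
  have memT : ∀ y ∈ ({a, b, c} : Finset GolayPt), ∀ w ∈ ({e, f, z} : Finset GolayPt), y ≠ w := by
    intro y hy w hw h
    rw [← eT] at hy
    rw [← eU] at hw
    exact Finset.disjoint_left.1 hdis0 hy (h ▸ hw)
  have hae := memT a (by simp) e (by simp)
  have haf := memT a (by simp) f (by simp)
  have hbe := memT b (by simp) e (by simp)
  have hbf := memT b (by simp) f (by simp)
  have hce := memT c (by simp) e (by simp)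
  have hcf := memT c (by simp) f (by simp)
  have hnd : ([a, b, c, e, f] : List GolayPt).Nodup := by
    simp only [List.nodup_cons, List.mem_cons, List.not_mem_nil, or_false, not_or, List.nodup_nil, not_false_eq_true, and_true]
    exact ⟨⟨hab, hac, hae, haf⟩, ⟨hbc, hbe, hbf⟩, ⟨hce, hcf⟩, hef⟩
  have hx : ∀ y ∈ ([a, b, c, e, f] : List GolayPt), y ∈ D0 := by
    have h1 : ∀ y ∈ ({a, b, c} : Finset GolayPt), y ∈ (enc.finOf dM : Finset GolayPt) := fun y hy =>
      hsubD (Finset.mem_union_left _ (eT ▸ hy))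
    have h2 : ∀ y ∈ ({e, f, z} : Finset GolayPt), y ∈ (enc.finOf dM : Finset GolayPt) := fun y hy =>
      hsubD (Finset.mem_union_right _ (eU ▸ hy))
    intro y hy
    simp only [List.mem_cons, List.not_mem_nil, or_false] at hy
    rcases hy with rfl | rfl | rfl | rfl | rfl
    · exact h1 _ (by simp)
    · exact h1 _ (by simp)
    · exact h1 _ (by simp)
    · exact h2 _ (by simp)
    · exact h2 _ (by simp)
  obtain ⟨G₁, hg₁D, m0, m1, m2, m3, m4⟩ := exists_base_map hnd hx
  have hinvD : G₁⁻¹ • (enc.finOf dM : Finset GolayPt) = enc.finOf dM := by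
    conv_lhs => rw [← hg₁D]
    exact inv_smul_smul G₁ _
  have hpt : ∀ {y : GolayPt} {i : ℕ}, G₁.1 (pt i) = y → (G₁⁻¹).1 y = pt i := by
    intro y i h
    rw [← h]
    show G₁.1⁻¹ (G₁.1 (pt i)) = pt i
    simp
  have h0 : (G₁⁻¹).1 a = pt 0 := hpt m0
  have h1 : (G₁⁻¹).1 b = pt 1 := hpt m1
  have h2 : (G₁⁻¹).1 c = pt 2 := hpt m2
  have h3 : (G₁⁻¹).1 e = pt 3 := hpt m3
  have h4 : (G₁⁻¹).1 f = pt 4 := hpt m4
  have hD : (G₁⁻¹ * g₀) • d = enc.finOf dM := by
    rw [mul_smul, hg₀', hinvD]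
  have hT : (G₁⁻¹ * g₀) • t = enc.finOf qa := by
    rw [mul_smul, eT, finOf_qa]
    show (G₁⁻¹).1 • ({a, b, c} : Finset GolayPt) = _
    rw [Finset.smul_finset_insert, Finset.smul_finset_insert, Finset.smul_finset_singleton]
    show ({(G₁⁻¹).1 a, (G₁⁻¹).1 b, (G₁⁻¹).1 c} : Finset GolayPt) = _
    rw [h0, h1, h2]
  refine ⟨G₁⁻¹ * g₀, hD, hT, ?_⟩
  set G : ↥M24 := G₁⁻¹ * g₀ with hG
  have hdisG : Disjoint (G • t) (G • u) := by
    rw [Finset.disjoint_iff_inter_eq_empty] at htu ⊢
    have : G • t ∩ G • u = G • (t ∩ u) := (Finset.smul_finset_inter (a := G.1) (s := t) (t := u)).symm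
    rw [this, htu]
    exact Finset.smul_finset_empty _
  have hunG : G • t ∪ G • u = G • (t ∪ u) := (Finset.smul_finset_union (a := G.1) (s₁ := t) (s₂ := u)).symm
  have hhG : G • t ∪ G • u ∈ hexadsOn (enc.finOf dM) := by
    rw [hunG, ← hD]
    exact smul_mem_hexadsOn G hh
  obtain ⟨_, o, ho, eo⟩ := hhG
  have hmemU : ∀ y ∈ ({e, f, z} : Finset GolayPt), (G₁⁻¹).1 y ∈ G • u := by
    intro y hy
    rw [← eU] at hy
    rw [hG, mul_smul]
    exact Finset.mem_smul_finset.2 ⟨y, hy, rfl⟩
  have hsub : ({pt 0, pt 1, pt 2, pt 3, pt 4} : Finset GolayPt) ⊆ o := by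
    have hin : ∀ y, y ∈ G • t ∪ G • u → y ∈ o := by
      intro y hy
      rw [← eo] at hy
      exact (Finset.mem_inter.1 hy).1
    have hp3 : pt 3 ∈ o := hin _ (Finset.mem_union_right _ (h3 ▸ hmemU e (by simp)))
    have hp4 : pt 4 ∈ o := hin _ (Finset.mem_union_right _ (h4 ▸ hmemU f (by simp)))
    have hq : ∀ y ∈ ({pt 0, pt 1, pt 2} : Finset GolayPt), y ∈ o := by
      intro y hy
      apply hin
      apply Finset.mem_union_left
      rw [hT, finOf_qa]
      exact hy
    intro y hy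
    simp only [Finset.mem_insert, Finset.mem_singleton] at hy
    rcases hy with rfl | rfl | rfl | rfl | rfl
    · exact hq _ (by simp)
    · exact hq _ (by simp)
    · exact hq _ (by simp)
    · exact hp3
    · exact hp4
  have hoeq : o = enc.finOf 5279 := octads_unique ho OOut_mem base5_card hsub base5_sub
  have hUn : G • t ∪ G • u = enc.finOf qa ∪ enc.finOf qb := by
    rw [← eo, hoeq, finOf_union_base]
    exact (enc.finOf_and _ _).symm
  apply Finset.eq_of_subset_of_card_le
  · intro y hy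
    have h5 : y ∈ G • t ∪ G • u := Finset.mem_union_right _ hy
    rw [hUn] at h5
    rcases Finset.mem_union.1 h5 with h6 | h6
    · rw [← hT] at h6
      exact absurd hy (Finset.disjoint_left.1 hdisG h6)
    · exact h6
  · rw [qb_card, hcard, hu]

/-- The quartet through two triples whose union is a hexad exists and is unique. -/
theorem quartet_existsUnique {d : Finset GolayPt} (hd : d ∈ dodecads) {t u : Finset GolayPt} (ht : t.card = 3)
    (hu : u.card = 3) (htu : Disjoint t u) (hh : t ∪ u ∈ hexadsOn d) :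
    ∃! Q : Finset (Finset GolayPt), Q ∈ quartets d ∧ t ∈ Q ∧ u ∈ Q := by
  obtain ⟨g, h1, h2, h3⟩ := split_normal hd ht hu htu hh
  refine ⟨g⁻¹ • Q0, ⟨?_, ?_, ?_⟩, ?_⟩
  · have := smul_mem_quartets g⁻¹ Q0_mem
    rwa [← h1, inv_smul_smul] at this
  · have : g⁻¹ • (g • t) ∈ g⁻¹ • Q0 := (mem_smul_fam g⁻¹).2 (by rw [h2]; simp [Q0])
    rwa [inv_smul_smul] at this
  · have : g⁻¹ • (g • u) ∈ g⁻¹ • Q0 := (mem_smul_fam g⁻¹).2 (by rw [h3]; simp [Q0])
    rwa [inv_smul_smul] at this
  · rintro Q ⟨hQ, hQt, hQu⟩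
    have h4 : g • Q = Q0 := by
      apply base_unique
      · rw [← h1]
        exact smul_mem_quartets g hQ
      · rw [← h2]
        exact (mem_smul_fam g).2 hQt
      · rw [← h3]
        exact (mem_smul_fam g).2 hQu
    rw [← h4, inv_smul_smul]

/-- Two triples of a quartet. -/
theorem exists_two_triples {d : Finset GolayPt} {Q : Finset (Finset GolayPt)} (hQ : Q ∈ quartets d) :
    ∃ t ∈ Q, ∃ u ∈ Q, t ≠ u := by
  have h1 : 1 < Q.card := by rw [hQ.1]; norm_num
  obtain ⟨t, ht, u, hu, h⟩ := Finset.one_lt_card.1 h1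
  exact ⟨t, ht, u, hu, h⟩

/-- The stabiliser of a dodecad is transitive on its quartets. -/
theorem quartets_transitive {d : Finset GolayPt} (hd : d ∈ dodecads) {Q Q' : Finset (Finset GolayPt)} (hQ : Q ∈ quartets d)
    (hQ' : Q' ∈ quartets d) : ∃ g : ↥M24, g • d = d ∧ g • Q = Q' := by
  obtain ⟨t, ht, u, hu, htu⟩ := exists_two_triples hQ
  obtain ⟨t', ht', u', hu', htu'⟩ := exists_two_triples hQ'
  obtain ⟨g, h1, h2, h3⟩ := split_normal hd (hQ.2.1 t ht).1 (hQ.2.1 u hu).1 (quartet_disjoint hQ ht hu htu)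
    (hQ.2.2 t ht u hu htu)
  obtain ⟨g', h1', h2', h3'⟩ := split_normal hd (hQ'.2.1 t' ht').1 (hQ'.2.1 u' hu').1 (quartet_disjoint hQ' ht' hu' htu')
    (hQ'.2.2 t' ht' u' hu' htu')
  have hD : (g'⁻¹ * g) • d = d := by rw [mul_smul, h1, ← h1', inv_smul_smul]
  have hT : (g'⁻¹ * g) • t = t' := by rw [mul_smul, h2, ← h2', inv_smul_smul]
  have hU : (g'⁻¹ * g) • u = u' := by rw [mul_smul, h3, ← h3', inv_smul_smul]
  refine ⟨g'⁻¹ * g, hD, ?_⟩
  have hm := smul_mem_quartets (g'⁻¹ * g) hQ
  rw [hD] at hm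
  exact (quartet_existsUnique hd (hQ'.2.1 t' ht').1 (hQ'.2.1 u' hu').1 (quartet_disjoint hQ' ht' hu' htu')
    (hQ'.2.2 t' ht' u' hu' htu')).unique
    ⟨hm, hT ▸ (mem_smul_fam _).2 ht, hU ▸ (mem_smul_fam _).2 hu⟩ ⟨hQ', ht', hu'⟩

/-! ### The table of quartets -/

/-- Hexad number `i` of the base dodecad. -/
noncomputable def hexT (i : ℕ) : ℕ := pget 24 16777215 hexData i

/-- Membership in the table of hexads. -/
noncomputable def inHex (m : ℕ) : Bool := anyBelow (fun i => Nat.beq (hexT i) m) 132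

theorem hexT_all : allBelow (fun i => hexB dM (hexT i)) 132 = true := by decide +kernel

theorem hexT_complete : allBelow (fun j => !(Nat.beq (Enc.popAux (Nat.land (ocT j) dM) 24) 6) ||
    inHex (Nat.land (ocT j) dM)) 759 = true := by decide +kernel

theorem inHex_iff {m : ℕ} (hm : m < 2 ^ 24) :
    (enc.finOf m : Finset GolayPt) ∈ hexadsOn (enc.finOf dM) ↔ inHex m = true := by
  rw [hexB_iff (by norm_num) hm]
  constructor
  · intro h
    unfold hexB at h
    rw [Bool.and_eq_true, anyBelow_iff] at h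
    obtain ⟨h1, j, hj, h2⟩ := h
    have h3 := (allBelow_iff _ _).1 hexT_complete j hj
    rw [Nat.eq_of_beq_eq_true h2, h1] at h3
    simpa using h3
  · intro h
    obtain ⟨i, hi, e⟩ := (anyBelow_iff _ _).1 h
    rw [← Nat.eq_of_beq_eq_true e]
    exact (allBelow_iff _ _).1 hexT_all i hi

/-- Triple number `j` of quartet number `k`. -/
noncomputable def qT (k j : ℕ) : ℕ := pget 24 16777215 qData (Nat.add (Nat.mul 4 k) j)

theorem qT_lt (k j : ℕ) : qT k j < 2 ^ 24 := by
  have h : qT k j = Nat.shiftRight qData (Nat.mul 24 (Nat.add (Nat.mul 4 k) j)) &&& (2 ^ 24 - 1) := rfl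
  rw [h]
  exact Nat.and_lt_two_pow _ (by norm_num)

/-- Quartet number `k`. -/
noncomputable def zq (k : ℕ) : Finset (Finset GolayPt) := famOf (qT k) 4

/-- The checks on one row of the table. -/
noncomputable def qRow (k : ℕ) : Bool :=
  allBelow (fun j => Nat.beq (Enc.popAux (qT k j) 24) 3 && Nat.beq (Nat.land (qT k j) dM) (qT k j) &&
    allBelow (fun j' => Nat.beq j j' || (!(Nat.beq (qT k j) (qT k j')) && inHex (Nat.lor (qT k j) (qT k j')))) 4) 4

theorem qRow_all : allBelow qRow 220 = true := by decide +kernel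

theorem zq_mem {k : ℕ} (hk : k < 220) : zq k ∈ quartets (enc.finOf dM) := by
  have hR := (allBelow_iff _ _).1 qRow_all k hk
  have hj : ∀ j, j < 4 → Nat.beq (Enc.popAux (qT k j) 24) 3 = true ∧ Nat.beq (Nat.land (qT k j) dM) (qT k j) = true ∧
      ∀ j', j' < 4 → j ≠ j' → qT k j ≠ qT k j' ∧ inHex (Nat.lor (qT k j) (qT k j')) = true := by
    intro j hj
    have h1 := (allBelow_iff _ _).1 hR j hj
    simp only [Bool.and_eq_true] at h1
    obtain ⟨⟨h2, h3⟩, h4⟩ := h1
    refine ⟨h2, h3, fun j' hj' hne => ?_⟩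
    have h5 := (allBelow_iff _ _).1 h4 j' hj'
    simp only [Bool.or_eq_true, Bool.and_eq_true, Bool.not_eq_true'] at h5
    rcases h5 with h5 | ⟨h5, h6⟩
    · exact absurd (Nat.eq_of_beq_eq_true h5) hne
    · refine ⟨fun h7 => ?_, h6⟩
      rw [h7, Nat.beq_refl] at h5
      exact Bool.noConfusion h5
  refine ⟨?_, ?_, ?_⟩
  · unfold zq famOf
    rw [Finset.card_image_of_injOn, Finset.card_range]
    intro a ha b hb hab
    by_contra hne
    exact ((hj a (Finset.mem_range.1 ha)).2.2 b (Finset.mem_range.1 hb) hne).1 (enc.finOf_injOn (qT_lt _ _) (qT_lt _ _) hab)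
  · intro t ht
    obtain ⟨j, hj', rfl⟩ := Finset.mem_image.1 ht
    obtain ⟨h1, h2, _⟩ := hj j (Finset.mem_range.1 hj')
    exact ⟨card_triple (Nat.eq_of_beq_eq_true h1), subset_of_land (Nat.eq_of_beq_eq_true h2)⟩
  · intro t ht u hu htu
    obtain ⟨j, hj1, rfl⟩ := Finset.mem_image.1 ht
    obtain ⟨j', hj2, rfl⟩ := Finset.mem_image.1 hu
    have hne : j ≠ j' := fun h => htu (by rw [h])
    have h1 := ((hj j (Finset.mem_range.1 hj1)).2.2 j' (Finset.mem_range.1 hj2) hne).2
    have h2 : (enc.finOf (qT k j) ∪ enc.finOf (qT k j') : Finset GolayPt) = enc.finOf (Nat.lor (qT k j) (qT k j')) :=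
      (enc.finOf_or _ _).symm
    rw [h2]
    exact (inHex_iff (Nat.or_lt_two_pow (qT_lt _ _) (qT_lt _ _))).2 h1

/-- A mask is a triple of row `k`. -/
noncomputable def inQ (k m : ℕ) : Bool := anyBelow (fun j => Nat.beq (qT k j) m) 4

theorem inQ_mem {k m : ℕ} (h : inQ k m = true) : (enc.finOf m : Finset GolayPt) ∈ zq k := by
  obtain ⟨j, hj, e⟩ := (anyBelow_iff _ _).1 h
  rw [← Nat.eq_of_beq_eq_true e]
  exact Finset.mem_image.2 ⟨j, Finset.mem_range.2 hj, rfl⟩

theorem inQ_of_mem {k m : ℕ} (hm : m < 2 ^ 24) (h : (enc.finOf m : Finset GolayPt) ∈ zq k) : inQ k m = true := by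
  obtain ⟨j, hj, e⟩ := Finset.mem_image.1 h
  refine (anyBelow_iff _ _).2 ⟨j, Finset.mem_range.1 hj, ?_⟩
  rw [enc.finOf_injOn (qT_lt _ _) hm e]
  exact Nat.beq_refl _

/-- Every split of a hexad through the point 0 lies in a row of the table. -/
noncomputable def qCover (a h : ℕ) : Bool :=
  !(Nat.beq (Enc.popAux a 24) 3) || !(tb a 0) ||
    anyBelow (fun k => inQ k a && inQ k (Nat.xor h a)) 220

theorem q_cover : allBelow (fun i => !(tb (hexT i) 0) || allSub (fun a => qCover a (hexT i)) (hexT i) 24 0) 132 = true := by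
  decide +kernel

theorem hexT_lt (i : ℕ) : hexT i < 2 ^ 24 := by
  have h : hexT i = Nat.shiftRight hexData (Nat.mul 24 i) &&& (2 ^ 24 - 1) := rfl
  rw [h]
  exact Nat.and_lt_two_pow _ (by norm_num)

theorem symmDiff_union_left {A B : Finset GolayPt} (hd : Disjoint A B) : symmDiff (A ∪ B) A = B := by
  ext y
  simp only [Finset.mem_symmDiff, Finset.mem_union]
  have h8 : y ∈ A → y ∉ B := fun h => Finset.disjoint_left.1 hd h
  tauto

/-- Every quartet of the base dodecad is in the table. -/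
theorem quartet_in_table {Q : Finset (Finset GolayPt)} (hQ : Q ∈ quartets (enc.finOf dM)) : ∃ k, k < 220 ∧ Q = zq k := by
  have hd : (enc.finOf dM : Finset GolayPt) ∈ dodecads := D0_mem
  obtain ⟨t, ht, h0⟩ := quartet_cover dM_card hQ (a := pt 0) ((mem_finOf_ptR (by norm_num)).2 (by decide +kernel))
  obtain ⟨u, hu, htu⟩ : ∃ u ∈ Q, t ≠ u := by
    have h1 : 1 < Q.card := by rw [hQ.1]; norm_num
    obtain ⟨u, hu, h2⟩ := Finset.exists_mem_ne h1 t
    exact ⟨u, hu, h2.symm⟩
  obtain ⟨a, ha, rfl⟩ := enc.exists_mask t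
  obtain ⟨b, hb, rfl⟩ := enc.exists_mask u
  have hdis := quartet_disjoint hQ ht hu htu
  have hhex := hQ.2.2 _ ht _ hu htu
  have h2 : (enc.finOf a ∪ enc.finOf b : Finset GolayPt) = enc.finOf (Nat.lor a b) := (enc.finOf_or _ _).symm
  rw [h2] at hhex
  have hlt := Nat.or_lt_two_pow ha hb
  obtain ⟨i, hi, e⟩ := (anyBelow_iff _ _).1 ((inHex_iff hlt).1 hhex)
  have e' : hexT i = Nat.lor a b := Nat.eq_of_beq_eq_true e
  have h3 := (allBelow_iff _ _).1 q_cover i hi
  simp only [Bool.or_eq_true, Bool.not_eq_true'] at h3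
  have hb0 : tb (hexT i) 0 = true := by
    rw [← mem_finOf_ptR (by norm_num), e', ← h2]
    exact Finset.mem_union_left _ h0
  rcases h3 with h3 | h3
  · rw [hb0] at h3
    exact Bool.noConfusion h3
  have hsub : ∀ j, a.testBit j = true → (hexT i).testBit j = true := by
    intro j hj
    rw [e']
    show (a ||| b).testBit j = true
    rw [Nat.testBit_or, hj]
    rfl
  have h4 := allSub_spec _ _ h3 a ha hsub
  rw [Nat.zero_add] at h4
  simp only [qCover, Bool.or_eq_true, Bool.not_eq_true'] at h4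
  have hc3 : Nat.beq (Enc.popAux a 24) 3 = true := by
    have := (hQ.2.1 _ ht).1
    rw [card_enc_finOf] at this
    rw [this]
    rfl
  have ht0 : tb a 0 = true := (mem_finOf_ptR (by norm_num)).1 h0
  rcases h4 with (h4 | h4) | h4
  · rw [hc3] at h4
    exact Bool.noConfusion h4
  · rw [ht0] at h4
    exact Bool.noConfusion h4
  obtain ⟨k, hk, h5⟩ := (anyBelow_iff _ _).1 h4
  simp only [Bool.and_eq_true] at h5
  obtain ⟨h5, h6⟩ := h5
  have hxor : (enc.finOf (Nat.xor (hexT i) a) : Finset GolayPt) = enc.finOf b := by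
    have h7 : (enc.finOf (Nat.xor (hexT i) a) : Finset GolayPt) = symmDiff (enc.finOf (hexT i)) (enc.finOf a) :=
      enc.finOf_xor _ _
    rw [h7, e', ← h2]
    exact symmDiff_union_left hdis
  refine ⟨k, hk, ?_⟩
  have hm := zq_mem hk
  exact (quartet_existsUnique hd (hQ.2.1 _ ht).1 (hQ.2.1 _ hu).1 hdis (hQ.2.2 _ ht _ hu htu)).unique
    ⟨hQ, ht, hu⟩ ⟨hm, inQ_mem h5, by rw [← hxor]; exact inQ_mem h6⟩

/-- The rows of the table are different. -/
noncomputable def qDiff (a b : ℕ) : Bool :=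
  !(allBelow (fun j => inQ b (qT a j)) 4)

theorem q_diff : allBelow (fun b => allBelow (fun a => qDiff a b) b) 220 = true := by decide +kernel

theorem zq_inj {a b : ℕ} (ha : a < 220) (hb : b < 220) (h : zq a = zq b) : a = b := by
  have key : ∀ a b, a < b → b < 220 → zq a ≠ zq b := by
    intro a b hab hb h
    have h1 := (allBelow_iff _ _).1 ((allBelow_iff _ _).1 q_diff b hb) a hab
    simp only [qDiff, Bool.not_eq_true'] at h1
    have h2 : allBelow (fun j => inQ b (qT a j)) 4 = true := by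
      refine (allBelow_iff _ _).2 fun j hj => inQ_of_mem (qT_lt _ _) ?_
      rw [← h]
      exact Finset.mem_image.2 ⟨j, Finset.mem_range.2 hj, rfl⟩
    rw [h2] at h1
    exact Bool.noConfusion h1
  rcases Nat.lt_trichotomy a b with h1 | h1 | h1
  · exact absurd h (key a b h1 hb)
  · exact h1
  · exact absurd h.symm (key b a h1 ha)

theorem quartets_eq_table : quartets (enc.finOf dM) = zq '' {k | k < 220} := by
  ext Q
  constructor
  · intro hQ
    obtain ⟨k, hk, rfl⟩ := quartet_in_table hQ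
    exact ⟨k, hk, rfl⟩
  · rintro ⟨k, hk, rfl⟩
    exact zq_mem hk

/-- A dodecad has 220 quartets. -/
theorem ncard_quartets {d : Finset GolayPt} (hd : d ∈ dodecads) : (quartets d).ncard = 220 := by
  obtain ⟨g, hg⟩ := dodecads_transitive hd D0_mem
  have hg' : g • d = enc.finOf dM := hg
  have h1 : quartets (enc.finOf dM) = (fun Q => g • Q) '' quartets d := by
    ext Q
    constructor
    · intro hQ
      refine ⟨g⁻¹ • Q, ?_, smul_inv_smul g Q⟩
      have := smul_mem_quartets g⁻¹ hQ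
      rwa [← hg', inv_smul_smul] at this
    · rintro ⟨Q', hQ', rfl⟩
      rw [← hg']
      exact smul_mem_quartets g hQ'
  have h2 : (quartets (enc.finOf dM)).ncard = 220 := by
    rw [quartets_eq_table, Set.InjOn.ncard_image (f := zq) (s := {k | k < 220}) (fun a ha b hb h => zq_inj ha hb h)]
    have : {k | k < 220} = ((Finset.range 220 : Finset ℕ) : Set ℕ) := by
      ext k
      simp
    rw [this, Set.ncard_coe_finset, Finset.card_range]
  rw [h1, Set.ncard_image_of_injective _ (MulAction.injective g)] at h2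
  exact h2

end Cfsg.Agent.Lib.M24
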