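import Cfsg.Agent.Lib.M24.Table
import Cfsg.Agent.Lib.M24.Quartet

/-!
# Points of the complement of a dodecad

Normal forms for a dodecad, a point of it and two points of the complement, and the orders of the resulting stabilisers.
-/

set_option autoImplicit false
set_option linter.constructorNameAsVariable false

namespace Cfsg.Agent.Lib.M24

open Cfsg Cfsg.Agent.Lib.Compute Cfsg.Agent.Lib.Golay
open scoped Pointwise

/-- The orbit-stabiliser theorem in a subgroup. -/
theorem card_inf_stab_sub {G Z : Type*} [Group G] [MulAction G Z] (H : Subgroup G) (y : Z) :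
    Nat.card ↥(H ⊓ MulAction.stabilizer G y) * (MulAction.orbit ↥H y).ncard = Nat.card ↥H := by
  have h1 := Subgroup.card_mul_index (MulAction.stabilizer ↥H y)
  rw [MulAction.index_stabilizer] at h1
  rw [← h1]
  congr 1
  apply Nat.card_congr
  exact
    { toFun := fun s => ⟨⟨s.1, s.2.1⟩, s.2.2⟩
      invFun := fun s => ⟨s.1.1, s.1.2, s.2⟩
      left_inv := fun s => rfl
      right_inv := fun s => rfl }

theorem pt5_notMem : pt 5 ∉ (enc.finOf dM : Finset GolayPt) := pt_not_mem_finOf 5 dM (by norm_num) (by decide +kernel)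
theorem pt7_notMem : pt 7 ∉ (enc.finOf dM : Finset GolayPt) := pt_not_mem_finOf 7 dM (by norm_num) (by decide +kernel)
theorem pt10_notMem : pt 10 ∉ (enc.finOf dM : Finset GolayPt) := pt_not_mem_finOf 10 dM (by norm_num) (by decide +kernel)
theorem pt0_mem : pt 0 ∈ (enc.finOf dM : Finset GolayPt) := pt_mem_finOf 0 dM (by norm_num) (by decide +kernel)

theorem pt5_ne_pt7 : pt 5 ≠ pt 7 := fun h => by
  have := pt_inj (by norm_num) (by norm_num) h
  omega

/-- A third point outside. -/
theorem exists_third {S : Finset GolayPt} (hS : 3 ≤ S.card) (a b : GolayPt) : ∃ r ∈ S, r ≠ a ∧ r ≠ b := by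
  by_contra hcon
  push Not at hcon
  have h : S ⊆ {a, b} := by
    intro r hr
    by_cases h1 : r = a
    · simp [h1]
    · simp [hcon r hr h1]
  have h1 := Finset.card_le_card h
  have h2 : ({a, b} : Finset GolayPt).card ≤ 2 := Finset.card_le_two
  omega

/-- Any dodecad has twelve points outside it. -/
theorem card_compl_dodecad {d : Finset GolayPt} (hd : d ∈ dodecads) : dᶜ.card = 12 := by
  rw [Finset.card_compl, hd.2]
  have h : Fintype.card GolayPt = 24 := by simp
  rw [h]

/-- Two-transitivity on the complement, as a statement about pairs. -/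
theorem pair_transitive {d : Finset GolayPt} (hd : d ∈ dodecads) {p : GolayPt} (hp : p ∈ d) {a b a' b' : GolayPt}
    (ha : a ∉ d) (hb : b ∉ d) (ha' : a' ∉ d) (hb' : b' ∉ d) (hab : a ≠ b) (hab' : a' ≠ b') :
    ∃ g ∈ MulAction.stabilizer M24 d ⊓ MulAction.stabilizer M24 p,
      (g : Equiv.Perm GolayPt) a = a' ∧ (g : Equiv.Perm GolayPt) b = b' := by
  have hc := card_compl_dodecad hd
  obtain ⟨r, hr, hra, hrb⟩ := exists_third (S := dᶜ) (by omega) a b
  obtain ⟨r', hr', hra', hrb'⟩ := exists_third (S := dᶜ) (by omega) a' b'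
  let x : Fin 3 ↪ GolayPt := ⟨![a, b, r], by
    intro u v h
    fin_cases u <;> fin_cases v <;> simp_all⟩
  let y : Fin 3 ↪ GolayPt := ⟨![a', b', r'], by
    intro u v h
    fin_cases u <;> fin_cases v <;> simp_all⟩
  obtain ⟨g, hg, hgxy⟩ := three_transitive_complement hd hp x y
    (by
      intro i
      fin_cases i
      · exact ha
      · exact hb
      · exact Finset.mem_compl.1 hr)
    (by
      intro i
      fin_cases i
      · exact ha'
      · exact hb'
      · exact Finset.mem_compl.1 hr')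
  exact ⟨g, hg, hgxy 0, hgxy 1⟩

/-- Normal form of a dodecad, a point of it and two points outside. -/
theorem exists_pair_normal {d : Finset GolayPt} (hd : d ∈ dodecads) {p q q' : GolayPt} (hp : p ∈ d) (hq : q ∉ d) (hq' : q' ∉ d)
    (hqq' : q ≠ q') : ∃ c : ↥M24, c • (enc.finOf dM : Finset GolayPt) = d ∧ c.1 (pt 0) = p ∧ c.1 (pt 5) = q ∧ c.1 (pt 7) = q' := by
  obtain ⟨g, hg, hg1, hg2⟩ := exists_flag hd hp
  have hg1' : (⟨g, hg⟩ : ↥M24) • d = enc.finOf dM := hg1
  have hout : ∀ a, a ∉ d → g a ∉ (enc.finOf dM : Finset GolayPt) := by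
    intro a ha h
    rw [← hg1'] at h
    exact ha ((mem_smul_iff ⟨g, hg⟩ a d).1 h)
  obtain ⟨u, hu, hu1, hu2⟩ := pair_transitive (d := enc.finOf dM) D0_mem pt0_mem (hout _ hq) (hout _ hq') pt5_notMem pt7_notMem
    (fun h => hqq' (g.injective h)) pt5_ne_pt7
  have hu0 : u.1 (pt 0) = pt 0 := hu.2
  have hu3 : u • (enc.finOf dM : Finset GolayPt) = enc.finOf dM := hu.1
  have e1 : (⟨g, hg⟩ : ↥M24) • d = enc.finOf dM := hg1'
  refine ⟨(u * ⟨g, hg⟩)⁻¹, ?_, ?_, ?_, ?_⟩
  · rw [inv_smul_eq_iff, mul_smul, e1, hu3]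
  · have : (u * ⟨g, hg⟩).1 p = pt 0 := by
      show u.1 (g p) = pt 0
      rw [hg2, hu0]
    rw [← this]
    exact Equiv.symm_apply_apply _ _
  · have : (u * ⟨g, hg⟩).1 q = pt 5 := hu1
    rw [← this]
    exact Equiv.symm_apply_apply _ _
  · have : (u * ⟨g, hg⟩).1 q' = pt 7 := hu2
    rw [← this]
    exact Equiv.symm_apply_apply _ _

/-- The subgroup fixing the base dodecad and a point. -/
noncomputable abbrev M11B : Subgroup ↥M24 :=
  MulAction.stabilizer ↥M24 (enc.finOf dM : Finset GolayPt) ⊓ MulAction.stabilizer ↥M24 (pt 0)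

theorem card_M11B : Nat.card ↥M11B = 7920 := card_stabilizer_flag D0_mem pt0_mem

/-- The subgroup fixing a further point. -/
noncomputable abbrev L11B : Subgroup ↥M24 := M11B ⊓ MulAction.stabilizer ↥M24 (pt 5)

theorem orbit_pt5 : MulAction.orbit ↥M11B (pt 5) = ((enc.finOf dM : Finset GolayPt)ᶜ : Finset GolayPt) := by
  ext x
  constructor
  · rintro ⟨⟨g, hg⟩, rfl⟩
    simp only [Finset.coe_compl, Set.mem_compl_iff, Finset.mem_coe]
    intro h
    have hg1 : g • (enc.finOf dM : Finset GolayPt) = enc.finOf dM := hg.1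
    rw [← hg1] at h
    exact pt5_notMem ((mem_smul_iff g _ _).1 h)
  · intro h
    have hx : x ∉ (enc.finOf dM : Finset GolayPt) := by simpa using h
    obtain ⟨r, hr, hr1, hr2⟩ := exists_third (S := (enc.finOf dM : Finset GolayPt)ᶜ) (by rw [card_compl_dodecad D0_mem]; norm_num) x x
    obtain ⟨g, hg, h1, -⟩ := pair_transitive (d := enc.finOf dM) D0_mem pt0_mem pt5_notMem pt7_notMem hx (Finset.mem_compl.1 hr) pt5_ne_pt7 hr1.symm
    exact ⟨⟨g, hg⟩, h1⟩

theorem card_L11B : Nat.card ↥L11B = 660 := by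
  have h := card_inf_stab_sub M11B (pt 5)
  rw [card_M11B, orbit_pt5, Set.ncard_coe_finset, card_compl_dodecad D0_mem] at h
  have h' : Nat.card ↥L11B * 12 = 7920 := h
  omega

/-- The stabiliser of a pair of points of the complement. -/
noncomputable abbrev S5B : Subgroup ↥M24 := M11B ⊓ MulAction.stabilizer ↥M24 ({pt 5, pt 7} : Finset GolayPt)

theorem orbit_pair : MulAction.orbit ↥M11B ({pt 5, pt 7} : Finset GolayPt) = (((enc.finOf dM : Finset GolayPt)ᶜ).powersetCard 2 : Finset (Finset GolayPt)) := by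
  ext x
  constructor
  · rintro ⟨⟨g, hg⟩, rfl⟩
    have hg1 : g • (enc.finOf dM : Finset GolayPt) = enc.finOf dM := hg.1
    have hout : ∀ a, a ∉ (enc.finOf dM : Finset GolayPt) → g.1 a ∉ (enc.finOf dM : Finset GolayPt) := by
      intro a ha h
      rw [← hg1] at h
      exact ha ((mem_smul_iff g _ _).1 h)
    have hx : (⟨g, hg⟩ : ↥M11B) • ({pt 5, pt 7} : Finset GolayPt) = {g.1 (pt 5), g.1 (pt 7)} := by
      ext z
      simp only [Finset.mem_smul_finset, Finset.mem_insert, Finset.mem_singleton]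
      constructor
      · rintro ⟨y, rfl | rfl, rfl⟩
        · exact Or.inl rfl
        · exact Or.inr rfl
      · rintro (rfl | rfl)
        · exact ⟨_, Or.inl rfl, rfl⟩
        · exact ⟨_, Or.inr rfl, rfl⟩
    simp only [Finset.mem_coe, Finset.mem_powersetCard]
    rw [hx]
    refine ⟨?_, ?_⟩
    · intro z hz
      simp only [Finset.mem_insert, Finset.mem_singleton] at hz
      rcases hz with rfl | rfl
      · exact Finset.mem_compl.2 (hout _ pt5_notMem)
      · exact Finset.mem_compl.2 (hout _ pt7_notMem)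
    · exact Finset.card_pair (fun h => pt5_ne_pt7 (g.1.injective h))
  · intro h
    simp only [Finset.mem_coe, Finset.mem_powersetCard] at h
    obtain ⟨a, b, hab, rfl⟩ := Finset.card_eq_two.1 h.2
    have ha : a ∉ (enc.finOf dM : Finset GolayPt) := Finset.mem_compl.1 (h.1 (by simp))
    have hb : b ∉ (enc.finOf dM : Finset GolayPt) := Finset.mem_compl.1 (h.1 (by simp))
    obtain ⟨g, hg, h1, h2⟩ := pair_transitive (d := enc.finOf dM) D0_mem pt0_mem pt5_notMem pt7_notMem ha hb pt5_ne_pt7 hab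
    refine ⟨⟨g, hg⟩, ?_⟩
    ext z
    simp only [Finset.mem_smul_finset, Finset.mem_insert, Finset.mem_singleton]
    constructor
    · rintro ⟨y, rfl | rfl, rfl⟩
      · exact Or.inl h1
      · exact Or.inr h2
    · rintro (rfl | rfl)
      · exact ⟨_, Or.inl rfl, h1⟩
      · exact ⟨_, Or.inr rfl, h2⟩

theorem card_S5B : Nat.card ↥S5B = 120 := by
  have h := card_inf_stab_sub M11B ({pt 5, pt 7} : Finset GolayPt)
  rw [card_M11B, orbit_pair, Set.ncard_coe_finset, Finset.card_powersetCard, card_compl_dodecad D0_mem] at h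
  have h2 : Nat.choose 12 2 = 66 := by decide
  rw [h2] at h
  have h' : Nat.card ↥S5B * 66 = 7920 := h
  omega

/-- From rows to an isomorphism. -/
theorem nonempty_equiv_of_rows {B : Subgroup ↥M24} {G' : Type*} [Group G'] [Finite G'] {L : ℕ → ℕ} {K : ℕ}
    (hv : allBelow (fun k => vld (L k)) K = true)
    (hasc : allBelow (fun k => Nat.blt (keyOf (pc (L k))) (keyOf (pc (L (k + 1))))) (K - 1) = true)
    (hcov : ∀ σ : ↥B, ∃ k, k < K ∧ σ.1.1 = ppm (L k))
    {k₀ : ℕ} (hid : rowId (pc (L k₀)) = true) (hk₀ : k₀ < K)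
    {n : ℕ} {s : ℕ → ℕ} {R : ℕ → ℕ → ℕ}
    (hs : allBelow (fun j => Nat.blt (s j) K) n = true)
    (hR : allBelow (fun j => allBelow (fun k => Nat.blt (R j k) K &&
      rowMul (pc (L k)) (pc (L (s j))) (pc (L (R j k)))) K) n = true)
    {par gen dist : ℕ → ℕ}
    (htree : allBelow (fun k => Nat.beq k k₀ || (Nat.blt (gen k) n && Nat.blt (par k) K &&
      Nat.blt (dist (par k)) (dist k) && Nat.beq (R (gen k) (par k)) k)) K = true)
    {φ : ℕ → G'} (hφ₀ : φ k₀ = 1) {T : ℕ → G'} (hφ : ∀ j, j < n → ∀ k, k < K → φ k * T j = φ (R j k))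
    (hφinj : ∀ k, k < K → φ k = 1 → k = k₀) (hcard : Nat.card ↥B = Nat.card G') : Nonempty (↥B ≃* G') := by
  obtain ⟨f, hf⟩ := exists_hom_of_rows hv hasc hcov hid hk₀ hs hR htree hφ₀ hφ
  have hinj : Function.Injective f := by
    rw [injective_iff_map_eq_one]
    intro g hg
    obtain ⟨k, hk, e⟩ := hcov g
    have h1 : φ k = 1 := by rw [← hf g k hk e, hg]
    have h2 := hφinj k hk h1
    subst h2
    apply Subtype.ext
    apply Subtype.ext
    rw [e]
    exact ppm_eq_one_of_rowId ((allBelow_iff _ _).1 hv _ hk₀) hid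
  have hbij : Function.Bijective f :=
    (Nat.bijective_iff_injective_and_card f).2 ⟨hinj, hcard⟩
  exact ⟨MulEquiv.ofBijective f hbij⟩

/-- The order of a subgroup whose elements are listed. -/
theorem card_of_rows {B : Subgroup ↥M24} {L : ℕ → ℕ} {K : ℕ} (hv : allBelow (fun k => vld (L k)) K = true)
    (hasc : allBelow (fun k => Nat.blt (keyOf (pc (L k))) (keyOf (pc (L (k + 1))))) (K - 1) = true)
    (hB : ∀ k, k < K → ∀ hv : vld (L k) = true, gOf hv ∈ B)
    (hcov : ∀ σ : ↥B, ∃ k, k < K ∧ σ.1.1 = ppm (L k)) : Nat.card ↥B = K := by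
  have hv' : ∀ k, k < K → vld (L k) = true := fun k hk => (allBelow_iff _ _).1 hv k hk
  let F : Fin K → ↥B := fun k => ⟨gOf (hv' k.1 k.2), hB k.1 k.2 _⟩
  have hFinj : Function.Injective F := by
    intro a b h
    have h1 : ppm (L a.1) = ppm (L b.1) := congrArg (fun x : ↥B => x.1.1) h
    exact Fin.ext (list_inj hv hasc _ _ a.2 b.2 h1)
  have hFsurj : Function.Surjective F := by
    intro σ
    obtain ⟨k, hk, e⟩ := hcov σ
    refine ⟨⟨k, hk⟩, ?_⟩
    apply Subtype.ext
    apply Subtype.ext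
    exact e.symm
  rw [← Nat.card_congr (Equiv.ofBijective F ⟨hFinj, hFsurj⟩), Nat.card_eq_fintype_card, Fintype.card_fin]

end Cfsg.Agent.Lib.M24
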