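import Cfsg.Agent.Lib.M24.Enum
import Cfsg.Agent.Lib.M24.Inv
import Cfsg.Agent.Lib.M24.Tables
import Cfsg.Agent.Lib.M24.Cent2Data

/-!
# The centraliser of a fixed-point-free involution of `M24`
-/

set_option autoImplicit false
set_option linter.constructorNameAsVariable false

namespace Cfsg.Agent.Lib.M24

open Cfsg Cfsg.Agent.Lib.Compute Cfsg.Agent.Lib.Golay
open scoped Pointwise

/-- The centraliser as a subgroup. -/
def centG (t : Equiv.Perm GolayPt) : Subgroup (Equiv.Perm GolayPt) := M24 ⊓ Subgroup.centralizer {t}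

theorem mem_centG {t c : Equiv.Perm GolayPt} : c ∈ centG t ↔ c ∈ M24 ∧ c * t = t * c := by
  unfold centG
  rw [Subgroup.mem_inf, Subgroup.mem_centralizer_singleton_iff]

/-- Images of the base for the elements of the centraliser fixing the point number 23. -/
noncomputable def I2 (n i : ℕ) : ℕ :=
  (fun u w => bcond (Nat.beq i 0) 23 (bcond (Nat.beq i 1) 0 (bcond (Nat.beq i 2) u (bcond (Nat.beq i 3) (pc r2b u) w))))
    (n / 24) (n % 24)

/-- The enumeration test. -/
noncomputable def c2Test (f : ℕ → ℕ) : Bool :=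
  !(conjF f (pc r2b) (pc r2b)) || c2L.any fun p => eqF f (pc p)

theorem c2_enum : enumChk 576 I2 (tbl120 c2Tbl) c2Test = true := by decide +kernel

theorem r2b_images : pc r2b 23 = 0 ∧ pc r2b 1 = 2 := by decide +kernel

theorem c2L_check : c2L.all (fun p => vld p && conjF (pc p) (pc r2b) (pc r2b) && Nat.beq (pc p 23) 23) = true := by
  decide +kernel

theorem c2L_length : c2L.length = 320 := by decide +kernel

theorem c2L_keys : ascB (c2L.map fun p => keyOf (pc p)) = true := by decide +kernel

theorem c2Y_check : c2Y.all (fun p => vld p && conjF (pc p) (pc r2b) (pc r2b)) = true := by decide +kernel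

theorem c2Y_images : (c2Y.map fun p => pc p 23) = List.range 24 := by decide +kernel

theorem comm_of_conjF {p : ℕ} (hv : vld p = true) (h : conjF (pc p) (pc r2b) (pc r2b) = true) :
    ppm p ∈ centG (ppm r2b) :=
  mem_centG.2 ⟨vld_mem hv, (conjF_iff (vld_code hv) (vld_code r2b_vld) (vld_code r2b_vld)).1 h⟩

/-- The elements of the centraliser of the representative fixing the point number 23 are in the list. -/
theorem c2_cover {σ : Equiv.Perm GolayPt} (hσ : σ ∈ M24) (hc : σ * ppm r2b = ppm r2b * σ) (h23 : σ (pt 23) = pt 23) :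
    ∃ p ∈ c2L, σ = ppm p := by
  have hcode := vld_code r2b_vld
  obtain ⟨r0, r1⟩ := r2b_images
  have hcomm : ∀ a, σ (ppm r2b a) = ppm r2b (σ a) := fun a => by
    have := congrArg (fun s : Equiv.Perm GolayPt => s a) hc
    simpa using this
  have hstep : ∀ i j, i < 24 → pc r2b i = j → idx (σ (pt j)) = pc r2b (idx (σ (pt i))) := by
    intro i j hi hij
    have h5 : ppm r2b (pt i) = pt j := by
      rw [code_pt hcode hi, hij]
    rw [← h5, hcomm]
    have := hcode (σ (pt i))
    simpa using this.symm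
  set u := idx (σ (pt 1)) with hu
  set w := idx (σ (pt 3)) with hw
  have hult : u < 24 := idx_lt _
  have hwlt : w < 24 := idx_lt _
  obtain ⟨b0, b1, b2, b3, b4⟩ := baseAt_vals
  have hn : (24 * u + w) < 576 := by omega
  have hdiv : (24 * u + w) / 24 = u := by omega
  have hmod : (24 * u + w) % 24 = w := by omega
  have h23' : idx (σ (pt 23)) = 23 := by
    rw [h23, idx_pt (by norm_num)]
  obtain ⟨f, hf, hΦ⟩ := enum_spec c2_enum hσ hn fun i hi => by
    have hI : I2 (24 * u + w) i = bcond (Nat.beq i 0) 23 (bcond (Nat.beq i 1) 0 (bcond (Nat.beq i 2) u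
        (bcond (Nat.beq i 3) (pc r2b u) w))) := by
      simp only [I2, hdiv, hmod]
    rw [hI]
    interval_cases i
    · simp only [Nat.beq, bcond_true]
      rw [b0, h23']
    · simp only [Nat.beq, bcond_true, bcond_false]
      rw [b1, hstep 23 0 (by norm_num) r0, h23', r0]
    · simp only [Nat.beq, bcond_true, bcond_false]
      rw [b2]
    · simp only [Nat.beq, bcond_true, bcond_false]
      rw [b3, hstep 1 2 (by norm_num) r1]
    · simp only [Nat.beq, bcond_false]
      rw [b4]
  simp only [c2Test, Bool.or_eq_true, Bool.not_eq_true', List.any_eq_true] at hΦ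
  have h3 : conjF f (pc r2b) (pc r2b) = true := (conjF_iff hf hcode hcode).2 hc
  rcases hΦ with h4 | ⟨p, hp, h4⟩
  · rw [h3] at h4
    exact Bool.noConfusion h4
  · have hv : vld p = true := by
      have := List.all_eq_true.1 c2L_check p hp
      simp only [Bool.and_eq_true] at this
      exact this.1.1
    exact ⟨p, hp, (eqF_iff hf (vld_code hv)).1 h4⟩

theorem c2_stab_card : Nat.card (stabL (centG (ppm r2b)) [pt 23]) = 320 := by
  have h := card_of_list (A := (stabL (centG (ppm r2b)) [pt 23] : Set (Equiv.Perm GolayPt))) (L := c2L)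
    (fun p hp => by
      have := List.all_eq_true.1 c2L_check p hp
      simp only [Bool.and_eq_true] at this
      exact this.1.1)
    (fun p hp => by
      have := List.all_eq_true.1 c2L_check p hp
      simp only [Bool.and_eq_true] at this
      refine ⟨comm_of_conjF this.1.1 this.1.2, fun x hx => ?_⟩
      have hx' : x = pt 23 := by simpa using hx
      rw [hx', code_pt (vld_code this.1.1) (by norm_num), Nat.eq_of_beq_eq_true this.2])
    (fun σ hσ => by
      have h1 := mem_centG.1 hσ.1
      exact c2_cover h1.1 h1.2 (hσ.2 _ (by simp)))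
    (nodup_keys_of_asc c2L_keys)
  rw [c2L_length] at h
  exact (Nat.card_coe_set_eq (stabL (centG (ppm r2b)) [pt 23] : Set (Equiv.Perm GolayPt))).trans h

theorem c2Y_mem {p : ℕ} (hp : p ∈ c2Y) : vld p = true ∧ ppm p ∈ centG (ppm r2b) := by
  have := List.all_eq_true.1 c2Y_check p hp
  simp only [Bool.and_eq_true] at this
  exact ⟨this.1, comm_of_conjF this.1 this.2⟩

theorem c2Y_exists (a : GolayPt) : ∃ c ∈ centG (ppm r2b), c (pt 23) = a := by
  have h1 : idx a ∈ c2Y.map fun p => pc p 23 := by
    rw [c2Y_images, List.mem_range]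
    exact idx_lt a
  obtain ⟨p, hp, h2⟩ := List.mem_map.1 h1
  obtain ⟨hv, hm⟩ := c2Y_mem hp
  exact ⟨ppm p, hm, by rw [code_pt (vld_code hv) (by norm_num), h2, pt_idx]⟩

theorem card_centG_r2b : Nat.card (centG (ppm r2b)) = 7680 := by
  have h := card_stabL_cons (G := centG (ppm r2b)) (l := []) (b := pt 23) (T := c2Y.map ppm)
    (fun t ht => by
      obtain ⟨p, hp, rfl⟩ := List.mem_map.1 ht
      exact ⟨(c2Y_mem hp).2, by simp⟩)
    (fun σ _ => by
      obtain ⟨c, hc, he⟩ : ∃ p ∈ c2Y, ppm p (pt 23) = σ (pt 23) := by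
        have h1 : idx (σ (pt 23)) ∈ c2Y.map fun p => pc p 23 := by
          rw [c2Y_images, List.mem_range]
          exact idx_lt _
        obtain ⟨p, hp, h2⟩ := List.mem_map.1 h1
        obtain ⟨hv, _⟩ := c2Y_mem hp
        exact ⟨p, hp, by rw [code_pt (vld_code hv) (by norm_num), h2, pt_idx]⟩
      exact ⟨ppm c, List.mem_map.2 ⟨c, hc, rfl⟩, he⟩)
    (by
      have h1 : ((c2Y.map ppm).map fun t => t (pt 23)) = (c2Y.map fun p => pt (pc p 23)) := by
        rw [List.map_map]
        apply List.map_congr_left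
        intro p hp
        exact code_pt (vld_code (c2Y_mem hp).1) (by norm_num)
      rw [h1]
      have h2 : (c2Y.map fun p => pt (pc p 23)) = (c2Y.map fun p => pc p 23).map pt := by
        rw [List.map_map]
        rfl
      rw [h2, c2Y_images]
      refine List.Nodup.map_on ?_ List.nodup_range
      intro a ha b hb hab
      exact pt_inj (List.mem_range.1 ha) (List.mem_range.1 hb) hab)
  rw [stabL_nil, c2_stab_card, List.length_map] at h
  have h3 : c2Y.length = 24 := by decide +kernel
  rw [h3] at h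
  rw [h]

/-- The sextet of the representative. -/
theorem c2_sextet_unique : allBelow (fun k => !(allBelow (fun j => Nat.beq (imgMask (pc r2b) (sxT k j) 24) (sxT k j)) 6) ||
    Nat.beq k 1714) 1771 = true := by
  decide +kernel

theorem c2_sextet_fix : allBelow (fun j => Nat.beq (imgMask (pc r2b) (sxT 1714 j) 24) (sxT 1714 j)) 6 = true := by
  decide +kernel

theorem eq_1714_of_fix {S : Finset (Finset GolayPt)} (hS : S ∈ sextets) (h : ∀ t ∈ S, ppm r2b • t = t) : S = sxS 1714 := by
  obtain ⟨k, hk, rfl⟩ := mem_sextets_iff.1 hS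
  have hcode := vld_code r2b_vld
  have h1 : allBelow (fun j => Nat.beq (imgMask (pc r2b) (sxT k j) 24) (sxT k j)) 6 = true := by
    refine (allBelow_iff _ _).2 fun j hj => ?_
    have h2 := h (enc.finOf (sxT k j)) (sxS_mem_iff.2 ⟨j, hj, rfl⟩)
    rw [img_finOf hcode] at h2
    have h3 := enc.finOf_injOn (n := 24) (imgMask_lt (fun i hi => code_lt hcode hi) _ 24 le_rfl) (sxT_lt k j) h2
    rw [h3]
    exact Nat.beq_refl _
  have h2 := (allBelow_iff _ _).1 c2_sextet_unique k hk
  rw [h1] at h2
  simp only [Bool.not_true, Bool.false_or] at h2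
  rw [Nat.eq_of_beq_eq_true h2]

theorem sxS1714_fix : ∀ t ∈ sxS 1714, ppm r2b • t = t := by
  intro t ht
  obtain ⟨j, hj, rfl⟩ := sxS_mem_iff.1 ht
  rw [img_finOf (vld_code r2b_vld), Nat.eq_of_beq_eq_true ((allBelow_iff _ _).1 c2_sextet_fix j hj)]

theorem sxS1714_centG {c : Equiv.Perm GolayPt} (hc : c ∈ centG (ppm r2b)) : c • sxS 1714 = sxS 1714 := by
  obtain ⟨h1, h2⟩ := mem_centG.1 hc
  apply eq_1714_of_fix (smul_mem_sextets h1 (sxS_mem_sextets (by norm_num)))
  intro t ht
  obtain ⟨u, hu, rfl⟩ := Finset.mem_smul_finset.1 ht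
  show ppm r2b • c • u = c • u
  rw [← mul_smul, ← h2, mul_smul, sxS1714_fix u hu]

theorem r2b_S1714 : ppm r2b • sxS 1714 = sxS 1714 :=
  sxS1714_centG (mem_centG.2 ⟨vld_mem r2b_vld, rfl⟩)

end Cfsg.Agent.Lib.M24
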