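import Cfsg.Agent.Lib.M24.Cent2
import Cfsg.Agent.Lib.M24.Cent2aData

/-!
# The centraliser of an involution of `M24` with an octad of fixed points: computations
-/

set_option autoImplicit false
set_option linter.constructorNameAsVariable false

namespace Cfsg.Agent.Lib.M24

open Cfsg Cfsg.Agent.Lib.Compute Cfsg.Agent.Lib.Golay
open scoped Pointwise

/-! ### Subgroups given by lists -/

/-- The subgroup generated by packed elements. -/
noncomputable def genS (gens : List ℕ) : Subgroup (Equiv.Perm GolayPt) :=
  Subgroup.closure {σ | ∃ g ∈ gens, σ = ppm g}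

/-- Every element of the list is the identity or a generator times a later element. -/
noncomputable def reachB (gens : List ℕ) : List ℕ → Bool
  | [] => true
  | p :: l => (idF (pc p) || gens.any fun g => l.any fun r => eqF (pc p) (fun i => pc g (pc r i))) &&
      reachB gens l

/-- The list is stable under left multiplication by the generators. -/
noncomputable def closedB (gens L : List ℕ) : Bool :=
  L.all fun p => gens.all fun g => L.any fun r => eqF (fun i => pc g (pc p i)) (pc r)

/-- Distinct entries. -/
noncomputable def ndB : List ℕ → Bool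
  | [] => true
  | a :: l => l.all (fun b => !(Nat.beq a b)) && ndB l

theorem ndB_nodup {l : List ℕ} (h : ndB l = true) : l.Nodup := by
  induction l with
  | nil => exact List.nodup_nil
  | cons a l ih =>
    simp only [ndB, Bool.and_eq_true, List.all_eq_true] at h
    refine List.nodup_cons.2 ⟨fun ha => ?_, ih h.2⟩
    have := h.1 a ha
    rw [Nat.beq_refl] at this
    exact Bool.noConfusion this

/-- All the checks for a list subgroup. -/
noncomputable def lgB (gens L : List ℕ) : Bool :=
  gens.all vld && L.all vld && gens.all (fun g => sqId (pc g)) && L.any (fun p => idF (pc p)) &&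
    closedB gens L && reachB gens L && ndB (L.map fun p => keyOf (pc p))

theorem reach_mem {gens : List ℕ} (hg : gens.all vld = true) :
    ∀ L : List ℕ, L.all vld = true → reachB gens L = true → ∀ p ∈ L, ppm p ∈ genS gens := by
  intro L
  induction L with
  | nil => simp
  | cons a l ih =>
    intro hv hr p hp
    simp only [List.all_cons, Bool.and_eq_true] at hv
    simp only [reachB, Bool.and_eq_true, Bool.or_eq_true, List.any_eq_true] at hr
    have hl := ih hv.2 hr.2
    rcases List.mem_cons.1 hp with rfl | hp
    · rcases hr.1 with h1 | ⟨g, hg1, r, hr1, h2⟩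
      · rw [(idF_iff (vld_code hv.1)).1 h1]
        exact one_mem _
      · have hgv := List.all_eq_true.1 hg g hg1
        have hrv := List.all_eq_true.1 hv.2 r hr1
        have := (eqF_iff (vld_code hv.1) (isCode_mul (vld_code hgv) (vld_code hrv))).1 h2
        rw [this]
        exact mul_mem (Subgroup.subset_closure ⟨g, hg1, rfl⟩) (hl r hr1)
    · exact hl p hp

theorem lgB_parts {gens L : List ℕ} (h : lgB gens L = true) :
    gens.all vld = true ∧ L.all vld = true ∧ gens.all (fun g => sqId (pc g)) = true ∧
      L.any (fun p => idF (pc p)) = true ∧ closedB gens L = true ∧ reachB gens L = true ∧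
      ndB (L.map fun p => keyOf (pc p)) = true := by
  simp only [lgB, Bool.and_eq_true] at h
  obtain ⟨⟨⟨⟨⟨⟨h1, h2⟩, h3⟩, h4⟩, h5⟩, h6⟩, h7⟩ := h
  exact ⟨h1, h2, h3, h4, h5, h6, h7⟩

theorem lgB_mem_iff {gens L : List ℕ} (h : lgB gens L = true) {σ : Equiv.Perm GolayPt} :
    σ ∈ genS gens ↔ ∃ p ∈ L, σ = ppm p := by
  obtain ⟨h1, h2, h3, h4, h5, h6, -⟩ := lgB_parts h
  constructor
  · intro hσ
    have hstep : ∀ g ∈ gens, ∀ y, (∃ p ∈ L, y = ppm p) → ∃ p ∈ L, ppm g * y = ppm p := by
      rintro g hg _ ⟨p, hp, rfl⟩
      have h7 := List.all_eq_true.1 (List.all_eq_true.1 h5 p hp) g hg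
      obtain ⟨r, hr, h8⟩ := List.any_eq_true.1 h7
      refine ⟨r, hr, ?_⟩
      exact (eqF_iff (isCode_mul (vld_code (List.all_eq_true.1 h1 g hg))
        (vld_code (List.all_eq_true.1 h2 p hp))) (vld_code (List.all_eq_true.1 h2 r hr))).1 h8
    refine Subgroup.closure_induction_left
      (p := fun y _ => ∃ p ∈ L, y = ppm p) ?_ ?_ ?_ hσ
    · obtain ⟨p, hp, h8⟩ := List.any_eq_true.1 h4
      exact ⟨p, hp, ((idF_iff (vld_code (List.all_eq_true.1 h2 p hp))).1 h8).symm⟩
    · rintro _ ⟨g, hg, rfl⟩ y _ hy
      exact hstep g hg y hy
    · rintro _ ⟨g, hg, rfl⟩ y _ hy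
      have h8 := (sqId_iff (vld_code (List.all_eq_true.1 h1 g hg))).1 (List.all_eq_true.1 h3 g hg)
      have h9 : (ppm g)⁻¹ = ppm g := by
        rw [inv_eq_iff_mul_eq_one]
        exact h8
      rw [h9]
      exact hstep g hg y hy
  · rintro ⟨p, hp, rfl⟩
    exact reach_mem h1 L h2 h6 p hp

theorem lgB_card {gens L : List ℕ} (h : lgB gens L = true) : Nat.card (genS gens) = L.length := by
  obtain ⟨-, h2, -, -, -, -, h7⟩ := lgB_parts h
  have h3 := card_of_list (A := (genS gens : Set (Equiv.Perm GolayPt))) (L := L)
    (fun p hp => List.all_eq_true.1 h2 p hp)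
    (fun p hp => (lgB_mem_iff h).2 ⟨p, hp, rfl⟩)
    (fun σ hσ => (lgB_mem_iff h).1 hσ)
    (ndB_nodup h7)
  exact (Nat.card_coe_set_eq (genS gens : Set (Equiv.Perm GolayPt))).trans h3

/-! ### The checks -/

theorem oQ_lg : lgB oQg oQL = true := by decide +kernel
theorem oV_lg : lgB oVg oVL = true := by decide +kernel
theorem oK_lg : lgB oKg oKL = true := by decide +kernel

theorem oQL_length : oQL.length = 128 := by decide +kernel
theorem oVL_length : oVL.length = 16 := by decide +kernel
theorem oKL_length : oKL.length = 168 := by decide +kernel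

/-- Images of the base for the elements of the centraliser fixing the points number `23` and `3`. -/
noncomputable def I3 (n i : ℕ) : ℕ :=
  bcond (Nat.beq i 0) 23 (bcond (Nat.beq i 1) 0 (bcond (Nat.beq i 2) n
    (bcond (Nat.beq i 3) (pc r2a n) 3)))

/-- The enumeration test. -/
noncomputable def o3Test (f : ℕ → ℕ) : Bool :=
  !(conjF f (pc r2a) (pc r2a)) || oKL.any fun p => eqF f (pc p)

theorem o3_enum : enumChk 24 I3 (tbl120 oKTbl) o3Test = true := by decide +kernel

theorem r2a_images : pc r2a 23 = 0 ∧ pc r2a 1 = 2 ∧ pc r2a 3 = 3 := by decide +kernel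

/-- The elements of the list are in the centraliser and fix the two points. -/
theorem oKL_check : oKL.all (fun p => conjF (pc p) (pc r2a) (pc r2a) && Nat.beq (pc p 23) 23 &&
    Nat.beq (pc p 3) 3) = true := by decide +kernel

/-- `Q` centralises the involution. -/
theorem oQL_comm : oQL.all (fun p => conjF (pc p) (pc r2a) (pc r2a)) = true := by decide +kernel

/-- Two elements of `Q` commute up to the involution. -/
theorem oQL_pairs : oQL.all (fun p => oQL.all fun q => conjF (pc p) (pc q) (pc q) ||
    conjF (pc p) (pc q) (fun i => pc r2a (pc q i))) = true := by decide +kernel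

/-- Squares of elements of `Q` are powers of the involution. -/
theorem oQL_squares : oQL.all (fun p => sqId (pc p) || eqF (fun i => pc p (pc p i)) (pc r2a)) = true := by
  decide +kernel

/-- The centre of `Q`. -/
theorem oQL_center : oQL.all (fun p => idF (pc p) || eqF (pc p) (pc r2a) ||
    oQg.any fun g => !(conjF (pc p) (pc g) (pc g))) = true := by decide +kernel

/-- A non-commuting pair. -/
theorem oQg_noncomm : oQg.any (fun a => oQg.any fun b => !(conjF (pc a) (pc b) (pc b))) = true := by
  decide +kernel

/-- The involution is in `Q`. -/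
theorem oQL_z : oQL.any (fun p => eqF (pc p) (pc r2a)) = true := by decide +kernel

/-- Transitivity of `Q` on the fixed points. -/
theorem oQL_trans : allBelow (fun i => !(Nat.beq (pc r2a i) i) || oQL.any fun q => Nat.beq (pc q 3) i) 24 = true := by
  decide +kernel

/-- Transitivity of `V` on the moved points. -/
theorem oVL_trans : allBelow (fun i => Nat.beq (pc r2a i) i || oVL.any fun v => Nat.beq (pc v 23) i) 24 = true := by
  decide +kernel

/-- `V` fixes the point number `3` and lies in `Q`. -/
theorem oVL_check : oVL.all (fun v => Nat.beq (pc v 3) 3 && oQL.any fun q => eqF (pc v) (pc q)) = true := by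
  decide +kernel

/-- `V` is elementary abelian. -/
theorem oVL_ab : oVL.all (fun p => sqId (pc p) && oVL.all fun q => conjF (pc p) (pc q) (pc q)) = true := by
  decide +kernel

/-- The generators of the complement normalise `Q`. -/
theorem oKg_norm : oKg.all (fun k => oQg.all fun g => oQL.any fun r => conjF (pc k) (pc g) (pc r)) = true := by
  decide +kernel

/-- Non-identity elements of the complement act non-trivially on `Q` modulo the involution. -/
theorem oKL_faith : oKL.all (fun k => idF (pc k) || oQg.any fun g => !(conjF (pc k) (pc g) (pc g)) &&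
    !(conjF (pc k) (pc g) (fun i => pc r2a (pc g i)))) = true := by decide +kernel

/-- `Q` meets the two-point stabiliser trivially. -/
theorem oQL_inf : oQL.all (fun p => !(Nat.beq (pc p 3) 3 && Nat.beq (pc p 23) 23) || idF (pc p)) = true := by
  decide +kernel

theorem oHg_vld : vld oHg = true := by decide +kernel

/-- The involution has another conjugate in `Q`. -/
theorem oHg_conj : oQL.any (fun w => conjF (pc oHg) (pc r2a) (pc w) && !(eqF (pc w) (pc r2a))) = true := by
  decide +kernel

/-- The labelled octad. -/
noncomputable def opv (n : ℕ) : ℕ := pget 5 31 oPv n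
/-- Labels of points. -/
noncomputable def olb (i : ℕ) : ℕ := pget 4 15 oLab i

theorem opv_lt : ∀ n, n < 8 → opv n < 24 := by decide +kernel
theorem olb_opv : ∀ n, n < 8 → olb (opv n) = n := by decide +kernel

/-- The action on the labels. -/
theorem oKL_lab : oKL.all (fun p => allBelow (fun n => Nat.blt (olb (pc p (opv n))) 8 &&
    Nat.beq (opv (olb (pc p (opv n)))) (pc p (opv n))) 8) = true := by decide +kernel

/-- The action on the labels is additive. -/
theorem oKL_add : oKL.all (fun p => allBelow (fun a => allBelow (fun b =>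
    Nat.beq (olb (pc p (opv (Nat.xor a b)))) (Nat.xor (olb (pc p (opv a))) (olb (pc p (opv b))))) 8) 8) = true := by
  decide +kernel

/-- The action on the labels is faithful. -/
theorem oKL_keys : ndB (oKL.map fun p => olb (pc p (opv 1)) + 8 * olb (pc p (opv 2)) + 64 * olb (pc p (opv 4))) = true := by
  decide +kernel

end Cfsg.Agent.Lib.M24
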