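import Mathlib

/-!
# Ree's inequality for permutations

If `x y z = 1` and `⟨x, y⟩` is transitive on `α` then `ind x + ind y + ind z ≥ 2 (|α| - 1)`, where
`ind g` is the rank of `1 - g` on the permutation module.  This is L. Scott's linear algebra argument.
-/

set_option autoImplicit false

namespace Cfsg.Agent.Lib.M24.Ree

open Equiv Equiv.Perm Module

variable {α : Type*} [Fintype α]

/-- Composition with a permutation. -/
def C (g : Perm α) : (α → ℚ) →ₗ[ℚ] (α → ℚ) := LinearMap.funLeft ℚ ℚ g

theorem C_apply (g : Perm α) (v : α → ℚ) (a : α) : C g v a = v (g a) := rfl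

/-- The difference with composition. -/
def R (g : Perm α) : (α → ℚ) →ₗ[ℚ] (α → ℚ) := LinearMap.id - C g

theorem R_apply (g : Perm α) (v : α → ℚ) (a : α) : R g v a = v a - v (g a) := rfl

/-- The index of a permutation. -/
noncomputable def ind (g : Perm α) : ℕ := finrank ℚ (LinearMap.range (R g))

theorem R_mul (g h : Perm α) (u : α → ℚ) : R (g * h) u = R g u + R h (C g u) := by
  funext i
  simp only [R_apply, C_apply, Pi.add_apply, Perm.mul_apply]
  ring

theorem R_inv (g : Perm α) (u : α → ℚ) : R g⁻¹ u = -R g (C g⁻¹ u) := by
  funext i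
  have h : g⁻¹ (g i) = i := by simp
  simp only [R_apply, C_apply, Pi.neg_apply, h]
  ring

theorem R_one (u : α → ℚ) : R (1 : Perm α) u = 0 := by
  funext i
  simp [R_apply]

/-- The permutations with differences in a submodule form a subgroup. -/
def subH (S : Submodule ℚ (α → ℚ)) : Subgroup (Perm α) where
  carrier := {g | ∀ u, R g u ∈ S}
  mul_mem' := by
    intro a b ha hb u
    rw [R_mul]
    exact S.add_mem (ha u) (hb _)
  one_mem' := by
    intro u
    rw [R_one]
    exact S.zero_mem
  inv_mem' := by
    intro a ha u
    rw [R_inv]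
    exact S.neg_mem (ha _)

/-- The stabiliser of a function. -/
def subI (v : α → ℚ) : Subgroup (Perm α) where
  carrier := {g | ∀ a, v (g a) = v a}
  mul_mem' := by
    intro a b ha hb i
    rw [Perm.mul_apply, ha, hb]
  one_mem' := fun _ => rfl
  inv_mem' := by
    intro a ha i
    have := ha (a⁻¹ i)
    have h : a (a⁻¹ i) = i := by simp
    rw [h] at this
    exact this.symm

/-- **Ree's inequality.** -/
theorem ree [DecidableEq α] (x y z : Perm α) (hxyz : x * y * z = 1) (a₀ : α)
    (htr : ∀ a b : α, ∃ g ∈ Subgroup.closure ({x, y} : Set (Perm α)), g a = b) :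
    2 * Fintype.card α ≤ ind x + ind y + ind z + 2 := by
  classical
  have hpt : ∀ i, x (y (z i)) = i := fun i => by
    have := congrArg (fun g : Perm α => g i) hxyz
    simpa using this
  let δ : (α → ℚ) →ₗ[ℚ] (LinearMap.range (R x) × LinearMap.range (R y) × LinearMap.range (R z)) :=
    (R x).rangeRestrict.prod ((R y).rangeRestrict.prod (R z).rangeRestrict)
  let ψ : (LinearMap.range (R x) × LinearMap.range (R y) × LinearMap.range (R z)) →ₗ[ℚ] (α → ℚ) :=
    { toFun := fun p => C (y * z) (p.1 : α → ℚ) + C z (p.2.1 : α → ℚ) + (p.2.2 : α → ℚ)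
      map_add' := by
        intro p q
        simp only [Prod.fst_add, Prod.snd_add, Submodule.coe_add, map_add]
        abel
      map_smul' := by
        intro c p
        simp only [Prod.smul_fst, Prod.smul_snd, Submodule.coe_smul, map_smul, RingHom.id_apply, smul_add] }
  have hψδ : ∀ v, ψ (δ v) = 0 := by
    intro v
    funext i
    show (v (y (z i)) - v (x (y (z i)))) + (v (z i) - v (y (z i))) + (v i - v (z i)) = 0
    rw [hpt]
    ring
  have h2 : LinearMap.range δ ≤ LinearMap.ker ψ := by
    rintro _ ⟨v, rfl⟩
    exact hψδ v
  have h2' := Submodule.finrank_mono h2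
  -- the kernel of `δ`
  have h3 : finrank ℚ (LinearMap.ker δ) ≤ 1 := by
    let ev : LinearMap.ker δ →ₗ[ℚ] ℚ := (LinearMap.proj a₀).comp (LinearMap.ker δ).subtype
    have hev : Function.Injective ev := by
      rw [injective_iff_map_eq_zero]
      rintro ⟨v, hv⟩ h0
      have h0' : v a₀ = 0 := h0
      have hδ : δ v = 0 := hv
      have hx : ∀ a, v (x a) = v a := by
        intro a
        have h5 : (R x).rangeRestrict v = 0 := congrArg Prod.fst hδ
        have h6 : R x v = 0 := congrArg Subtype.val h5
        have h7 := congrFun h6 a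
        rw [R_apply] at h7
        simp only [Pi.zero_apply] at h7
        linarith
      have hy : ∀ a, v (y a) = v a := by
        intro a
        have h5 : (R y).rangeRestrict v = 0 := congrArg (fun p => p.2.1) hδ
        have h6 : R y v = 0 := congrArg Subtype.val h5
        have h7 := congrFun h6 a
        rw [R_apply] at h7
        simp only [Pi.zero_apply] at h7
        linarith
      have hle : Subgroup.closure ({x, y} : Set (Perm α)) ≤ subI v := by
        rw [Subgroup.closure_le]
        rintro g (rfl | rfl)
        · exact hx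
        · exact hy
      apply Subtype.ext
      funext b
      obtain ⟨g, hg, e⟩ := htr a₀ b
      show v b = 0
      rw [← e, hle hg a₀, h0']
    have := LinearMap.finrank_le_finrank_of_injective hev
    rwa [Module.finrank_self] at this
  -- the range of `ψ`
  have hS : ∀ g ∈ Subgroup.closure ({x, y} : Set (Perm α)), ∀ u, R g u ∈ LinearMap.range ψ := by
    have hle : Subgroup.closure ({x, y} : Set (Perm α)) ≤ subH (LinearMap.range ψ) := by
      have hxm : x ∈ subH (LinearMap.range ψ) := by
        have h5 : x⁻¹ ∈ subH (LinearMap.range ψ) := by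
          intro u
          have hm : R x u ∈ LinearMap.range (R x) := ⟨u, rfl⟩
          refine Submodule.neg_mem_iff _ |>.1 ⟨(⟨R x u, hm⟩, 0, 0), ?_⟩
          funext i
          show (C (y * z) (R x u)) i + C z (0 : α → ℚ) i + (0 : α → ℚ) i = -(R x⁻¹ u i)
          have h6 : x⁻¹ i = y (z i) := by
            rw [Perm.inv_eq_iff_eq]
            exact (hpt i).symm
          rw [C_apply, R_apply, R_apply, Perm.mul_apply, h6, hpt]
          simp only [map_zero, Pi.zero_apply]
          ring
        have := (subH (LinearMap.range ψ)).inv_mem h5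
        rwa [inv_inv] at this
      have hym : y ∈ subH (LinearMap.range ψ) := by
        have h5 : x * y * x⁻¹ ∈ subH (LinearMap.range ψ) := by
          intro u
          have hm : R y (C z⁻¹ u) ∈ LinearMap.range (R y) := ⟨_, rfl⟩
          refine ⟨(0, ⟨R y (C z⁻¹ u), hm⟩, 0), ?_⟩
          funext i
          show C (y * z) (0 : α → ℚ) i + (C z (R y (C z⁻¹ u))) i + (0 : α → ℚ) i = _
          have h6 : z⁻¹ = x * y := (eq_inv_of_mul_eq_one_left hxyz).symm
          have h7 : z⁻¹ (z i) = i := by simp
          have h8 : x⁻¹ i = y (z i) := by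
            rw [Perm.inv_eq_iff_eq]
            exact (hpt i).symm
          simp only [map_zero, Pi.zero_apply, zero_add, add_zero]
          rw [C_apply, R_apply, C_apply, C_apply, R_apply, Perm.mul_apply, Perm.mul_apply, h7, h8, h6, Perm.mul_apply]
        have h9 : x⁻¹ * (x * y * x⁻¹) * x = y := by group
        have h10 := (subH (LinearMap.range ψ)).mul_mem ((subH (LinearMap.range ψ)).mul_mem
          ((subH (LinearMap.range ψ)).inv_mem hxm) h5) hxm
        rwa [h9] at h10
      rw [Subgroup.closure_le]
      rintro g (rfl | rfl)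
      · exact hxm
      · exact hym
    intro g hg
    exact hle hg
  let Sg : (α → ℚ) →ₗ[ℚ] ℚ := ∑ a, LinearMap.proj a
  have hSg : ∀ v, Sg v = ∑ a, v a := by
    intro v
    simp [Sg, LinearMap.sum_apply]
  have hker : LinearMap.ker Sg ≤ LinearMap.range ψ := by
    intro v hv
    have hv0 : ∑ a, v a = 0 := by
      rw [← hSg]
      exact hv
    have hdiff : ∀ a b : α, (Pi.single a (1 : ℚ) - Pi.single b (1 : ℚ)) ∈ LinearMap.range ψ := by
      intro a b
      obtain ⟨g, hg, e⟩ := htr b a
      have := hS g hg (Pi.single a (1 : ℚ))
      have e2 : R g (Pi.single a (1 : ℚ)) = Pi.single a (1 : ℚ) - Pi.single b (1 : ℚ) := by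
        funext i
        rw [R_apply, Pi.sub_apply]
        congr 1
        by_cases hi : i = b
        · subst hi
          rw [e]
          simp
        · have h5 : g i ≠ a := by
            intro h6
            apply hi
            apply g.injective
            rw [h6, e]
          rw [Pi.single_eq_of_ne h5, Pi.single_eq_of_ne hi]
      rwa [e2] at this
    have e1 : v = ∑ a, v a • (Pi.single a (1 : ℚ) - Pi.single a₀ (1 : ℚ)) := by
      funext i
      simp only [Finset.sum_apply, Pi.smul_apply, Pi.sub_apply, smul_eq_mul, mul_sub, Finset.sum_sub_distrib]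
      rw [← Finset.sum_mul, hv0, zero_mul, sub_zero]
      simp [Pi.single_apply]
    rw [e1]
    exact Submodule.sum_mem _ (fun a _ => Submodule.smul_mem _ _ (hdiff a a₀))
  have h4 : Fintype.card α ≤ finrank ℚ (LinearMap.range ψ) + 1 := by
    have h5 := Submodule.finrank_mono hker
    have h6 := LinearMap.finrank_range_add_finrank_ker Sg
    have h7 : finrank ℚ (LinearMap.range Sg) ≤ 1 := by
      have := Submodule.finrank_le (LinearMap.range Sg)
      rwa [Module.finrank_self] at this
    rw [Module.finrank_fintype_fun_eq_card] at h6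
    omega
  have h5 := LinearMap.finrank_range_add_finrank_ker δ
  have h6 := LinearMap.finrank_range_add_finrank_ker ψ
  rw [Module.finrank_fintype_fun_eq_card] at h5
  rw [Module.finrank_prod, Module.finrank_prod] at h6
  have e3 : ind x = finrank ℚ (LinearMap.range (R x)) := rfl
  have e4 : ind y = finrank ℚ (LinearMap.range (R y)) := rfl
  have e5 : ind z = finrank ℚ (LinearMap.range (R z)) := rfl
  omega

/-- The index and the number of cycles. -/
theorem ind_add_orbits [DecidableEq α] (g : Perm α) : ind g + Nat.card (Quotient (SameCycle.setoid g)) ≤ Fintype.card α := by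
  classical
  haveI : Fintype (Quotient (SameCycle.setoid g)) := Fintype.ofFinite _
  let pull : (Quotient (SameCycle.setoid g) → ℚ) →ₗ[ℚ] (α → ℚ) :=
    LinearMap.funLeft ℚ ℚ (fun a => (Quotient.mk (SameCycle.setoid g) a))
  have hinj : Function.Injective pull :=
    LinearMap.funLeft_injective_of_surjective ℚ ℚ _ Quotient.mk_surjective
  have hle : LinearMap.range pull ≤ LinearMap.ker (R g) := by
    rintro _ ⟨f, rfl⟩
    rw [LinearMap.mem_ker]
    funext a
    rw [R_apply]
    have h1 : Quotient.mk (SameCycle.setoid g) a = Quotient.mk (SameCycle.setoid g) (g a) :=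
      Quotient.sound (sameCycle_apply_right.2 (SameCycle.refl _ _))
    show f (Quotient.mk _ a) - f (Quotient.mk _ (g a)) = 0
    rw [← h1, sub_self]
  have h1 := Submodule.finrank_mono hle
  rw [LinearMap.finrank_range_of_inj hinj, Module.finrank_fintype_fun_eq_card] at h1
  have h2 := LinearMap.finrank_range_add_finrank_ker (R g)
  rw [Module.finrank_fintype_fun_eq_card] at h2
  rw [Nat.card_eq_fintype_card]
  have e3 : ind g = finrank ℚ (LinearMap.range (R g)) := rfl
  omega

/-- Counting the cycles of an element with `g ^ (s + 1) = 1`. -/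
theorem orbit_bound [DecidableEq α] (g : Perm α) (s : ℕ) (hg : g ^ (s + 1) = 1) :
    Fintype.card α + s * (Finset.univ.filter (fun a => g a = a)).card ≤
      (s + 1) * Nat.card (Quotient (SameCycle.setoid g)) := by
  classical
  haveI : Fintype (Quotient (SameCycle.setoid g)) := Fintype.ofFinite _
  let π : α → Quotient (SameCycle.setoid g) := fun a => Quotient.mk _ a
  have hfib : ∀ ω : Quotient (SameCycle.setoid g),
      (Finset.univ.filter (fun a => π a = ω)).card +
        s * ((Finset.univ.filter (fun a => g a = a)).filter (fun a => π a = ω)).card ≤ s + 1 := by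
    intro ω
    obtain ⟨a, rfl⟩ : ∃ a, π a = ω := Quotient.mk_surjective ω
    have hsame : ∀ b, π b = π a → SameCycle g a b := fun b h => (Quotient.exact h).symm
    by_cases hfix : ∃ b, g b = b ∧ π b = π a
    · obtain ⟨b, hb, hba⟩ := hfix
      have hall : ∀ c, π c = π a → c = b := by
        intro c hc
        have h1 : SameCycle g b c := (hsame b hba).symm.trans (hsame c hc)
        exact (h1.eq_of_left hb).symm
      have e1 : Finset.univ.filter (fun c => π c = π a) = {b} := by
        ext c
        simp only [Finset.mem_filter, Finset.mem_univ, true_and, Finset.mem_singleton]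
        exact ⟨hall c, fun h => h ▸ hba⟩
      have e2 : (Finset.univ.filter (fun a => g a = a)).filter (fun c => π c = π a) = {b} := by
        ext c
        simp only [Finset.mem_filter, Finset.mem_univ, true_and, Finset.mem_singleton]
        constructor
        · intro h
          exact hall c h.2
        · rintro rfl
          exact ⟨hb, hba⟩
      rw [e1, e2, Finset.card_singleton]
      omega
    · have e2 : (Finset.univ.filter (fun a => g a = a)).filter (fun c => π c = π a) = ∅ := by
        apply Finset.eq_empty_of_forall_notMem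
        intro c hc
        simp only [Finset.mem_filter, Finset.mem_univ, true_and] at hc
        exact hfix ⟨c, hc.1, hc.2⟩
      rw [e2, Finset.card_empty, mul_zero, add_zero]
      have hsub : Finset.univ.filter (fun c => π c = π a) ⊆ (Finset.range (s + 1)).image (fun k => (g ^ k) a) := by
        intro b hb
        simp only [Finset.mem_filter, Finset.mem_univ, true_and] at hb
        obtain ⟨k, hk⟩ := (hsame b hb).exists_nat_pow_eq
        rw [Finset.mem_image]
        refine ⟨k % (s + 1), Finset.mem_range.2 (Nat.mod_lt _ (Nat.succ_pos s)), ?_⟩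
        show (g ^ (k % (s + 1))) a = b
        rw [← pow_eq_pow_mod k hg]
        exact hk
      calc _ ≤ ((Finset.range (s + 1)).image (fun k => (g ^ k) a)).card := Finset.card_le_card hsub
        _ ≤ (Finset.range (s + 1)).card := Finset.card_image_le
        _ = s + 1 := Finset.card_range _
  have hsum := Finset.sum_le_sum (fun ω (_ : ω ∈ (Finset.univ : Finset (Quotient (SameCycle.setoid g)))) => hfib ω)
  rw [Finset.sum_add_distrib, ← Finset.mul_sum, Finset.sum_const, Finset.card_univ, smul_eq_mul] at hsum
  have e1 : ∑ ω, (Finset.univ.filter (fun a => π a = ω)).card = Fintype.card α := by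
    rw [← Finset.card_univ, Finset.card_eq_sum_card_fiberwise (f := π) (t := Finset.univ) (fun _ _ => Finset.mem_coe.2 (Finset.mem_univ _))]
  have e2 : ∑ ω, ((Finset.univ.filter (fun a => g a = a)).filter (fun a => π a = ω)).card =
      (Finset.univ.filter (fun a => g a = a)).card := by
    rw [Finset.card_eq_sum_card_fiberwise (s := Finset.univ.filter (fun a => g a = a)) (f := π) (t := Finset.univ)
      (fun _ _ => Finset.mem_coe.2 (Finset.mem_univ _))]
  rw [e1, e2] at hsum
  rw [Nat.card_eq_fintype_card]
  linarith

/-- The bound for the index. -/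
theorem ind_bound [DecidableEq α] (g : Perm α) (s : ℕ) (hg : g ^ (s + 1) = 1) :
    (s + 1) * ind g + s * (Finset.univ.filter (fun a => g a = a)).card ≤ s * Fintype.card α := by
  have h1 := orbit_bound g s hg
  have h2 := ind_add_orbits g
  nlinarith

end Cfsg.Agent.Lib.M24.Ree
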